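import Cfsg.Agent.Invol.StronglyEmbedded
import Cfsg.Agent.S1225
import Cfsg.Agent.RankOneP.Basic
import Mathlib.GroupTheory.Sylow
import Mathlib.GroupTheory.PGroup

/-!
# Groups in which the centraliser of every involution is abelian: the strongly embedded subgroup
-/

set_option autoImplicit false
set_option linter.style.haveILetI false
set_option linter.unusedSectionVars false

namespace CfsgLib.AbInv

open Subgroup CfsgLib.Invol

universe u

variable {G : Type u} [Group G]

/-- The centraliser of every involution is abelian. -/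
def AI (G : Type u) [Group G] : Prop :=
  ∀ t : G, orderOf t = 2 → ∀ a ∈ centralizer ({t} : Set G), ∀ b ∈ centralizer ({t} : Set G), a * b = b * a

/-- The standing hypotheses. -/
structure Hy (T : Sylow 2 G) : Prop where
  ai : AI G
  notCyclic : ¬ IsCyclic (T : Subgroup G)
  notNormal : ¬ (T : Subgroup G).Normal

/-- The centraliser of the Sylow subgroup: it is the centraliser of each of its involutions. -/
abbrev AT (T : Sylow 2 G) : Subgroup G := centralizer ((T : Subgroup G) : Set G)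

/-- The normaliser of `AT T`. -/
abbrev MT (T : Sylow 2 G) : Subgroup G := normalizer (AT T : Set G)

/-- Central product of an elementary group and the centre. -/
def Split (G : Type u) [Group G] : Prop :=
  ∃ L : Subgroup G, L ⊓ center G = ⊥ ∧ L ⊔ center G = ⊤ ∧
    ∀ t ∈ L, orderOf t = 2 → ∀ c ∈ L, c * t = t * c → c ^ 2 = 1

theorem AI.subgroup (h : AI G) (X : Subgroup G) : AI X := by
  intro t ht a ha b hb
  refine Subtype.ext (h t (by rw [orderOf_coe]; exact ht) a ?_ b ?_)
  · exact mem_centralizer_singleton_iff.2 (congrArg Subtype.val (mem_centralizer_singleton_iff.1 ha))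
  · exact mem_centralizer_singleton_iff.2 (congrArg Subtype.val (mem_centralizer_singleton_iff.1 hb))

theorem AT_comm_T {T : Sylow 2 G} {a t : G} (ha : a ∈ AT T) (ht : t ∈ (T : Subgroup G)) : t * a = a * t :=
  mem_centralizer_iff.1 ha t ht

variable [Finite G] {T : Sylow 2 G} (h : Hy T)

section
include h

theorem exists_center_invol :
    ∃ z ∈ (T : Subgroup G), orderOf z = 2 ∧ (T : Subgroup G) ≤ centralizer ({z} : Set G) := by
  haveI : Fact (Nat.Prime 2) := ⟨Nat.prime_two⟩
  haveI : Nontrivial (T : Subgroup G) := (nontrivial_iff_ne_bot _).2 fun e =>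
    h.notCyclic (by rw [e]; infer_instance)
  haveI := T.isPGroup'.center_nontrivial
  obtain ⟨z, hz⟩ := exists_prime_orderOf_dvd_card' (G := center (T : Subgroup G)) 2
    ((T.isPGroup'.to_subgroup _).card_eq_or_dvd.resolve_left (Finite.one_lt_card (α := center (T : Subgroup G))).ne')
  rw [← orderOf_coe, ← orderOf_coe] at hz
  exact ⟨_, (z : (T : Subgroup G)).2, hz, fun c hc =>
    mem_centralizer_singleton_iff.2 (congrArg Subtype.val (mem_center_iff.1 z.2 ⟨c, hc⟩))⟩

theorem T_comm {a b : G} (ha : a ∈ (T : Subgroup G)) (hb : b ∈ (T : Subgroup G)) : a * b = b * a := by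
  obtain ⟨z, -, hz, hle⟩ := exists_center_invol h
  exact h.ai z hz a (hle ha) b (hle hb)

theorem T_le : (T : Subgroup G) ≤ AT T := fun a ha => mem_centralizer_iff.2 fun _ hb => T_comm h hb ha

theorem A_comm {a b : G} (ha : a ∈ AT T) (hb : b ∈ AT T) : a * b = b * a := by
  obtain ⟨z, hzT, hz, -⟩ := exists_center_invol h
  exact h.ai z hz a (mem_centralizer_singleton_iff.2 (AT_comm_T ha hzT).symm) b
    (mem_centralizer_singleton_iff.2 (AT_comm_T hb hzT).symm)

/-- The centraliser of an involution of `AT T` is `AT T`. -/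
theorem centralizer_eq {t : G} (ht : orderOf t = 2) (htA : t ∈ AT T) : centralizer ({t} : Set G) = AT T := by
  refine le_antisymm (fun c hc => mem_centralizer_iff.2 fun s hs => ?_) fun c hc =>
    mem_centralizer_singleton_iff.2 (A_comm h hc htA)
  exact h.ai t ht s (mem_centralizer_singleton_iff.2 (AT_comm_T htA hs)) c hc

/-- An element of `AT T` of `2`-power order lies in `T`. -/
theorem mem_T {a : G} (ha : a ∈ AT T) {k : ℕ} (hk : a ^ 2 ^ k = 1) : a ∈ (T : Subgroup G) := by
  haveI : Fact (Nat.Prime 2) := ⟨Nat.prime_two⟩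
  have hp : IsPGroup 2 (zpowers a) := by
    refine IsPGroup.of_card_dvd_pow (n := k) ?_
    rw [Nat.card_zpowers]
    exact orderOf_dvd_of_pow_eq_one hk
  have hle : zpowers a ≤ normalizer ((T : Subgroup G) : Set G) := zpowers_le.2
    (mem_normalizer_iff.2 fun x => by
      constructor
      · intro hx
        rwa [← AT_comm_T ha hx, mul_inv_cancel_right]
      · intro hx
        have h1 := AT_comm_T ha hx
        rwa [mul_left_cancel (a := a) (b := x) (c := a * x * a⁻¹) (by rw [← h1]; group)])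
  have h1 := T.is_maximal' (IsPGroup.to_sup_of_normal_right' hp T.isPGroup' hle) le_sup_right
  exact h1 ▸ mem_sup_left (mem_zpowers a)

theorem invol_mem_T {t : G} (ht : orderOf t = 2) (htA : t ∈ AT T) : t ∈ (T : Subgroup G) :=
  mem_T h htA (k := 1) (by rw [pow_one, ← ht, pow_orderOf_eq_one])

theorem exists_invol : ∃ t : G, orderOf t = 2 ∧ t ∈ AT T := by
  obtain ⟨z, hzT, hz, -⟩ := exists_center_invol h
  exact ⟨z, hz, T_le h hzT⟩

/-- Two distinct involutions in `AT T`. -/
theorem exists_two_invol : ∃ s t : G, orderOf s = 2 ∧ s ∈ AT T ∧ orderOf t = 2 ∧ t ∈ AT T ∧ s ≠ t := by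
  haveI : Fact (Nat.Prime 2) := ⟨Nat.prime_two⟩
  obtain ⟨z, hzT, hz, -⟩ := exists_center_invol h
  by_contra hc
  push Not at hc
  apply h.notCyclic
  have key : ∀ x : (T : Subgroup G), x ^ 2 = 1 → x ≠ 1 → (x : G) = z := fun x hx hx1 =>
    hc x z (by rw [orderOf_coe]; exact orderOf_eq_prime hx hx1) (T_le h x.2) hz (T_le h hzT)
  refine CfsgLib.RankOneP.isCyclic_of_commute T.isPGroup' (fun x y hx hy hx1 => ?_)
    fun a b => Subtype.ext (T_comm h a.2 b.2)
  by_cases hy1 : y = 1
  · exact hy1 ▸ one_mem _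
  · obtain rfl : x = y := Subtype.ext ((key x hx hx1).trans (key y hy hy1).symm)
    exact mem_zpowers _

/-- An element conjugating one involution of `AT T` into `AT T` lies in `MT T`. -/
theorem mem_M_of_conj {g t : G} (ht : orderOf t = 2) (htA : t ∈ AT T) (hg : g * t * g⁻¹ ∈ AT T) : g ∈ MT T := by
  have h1 := centralizer_eq h ((orderOf_conj g t).trans ht) hg
  rw [mem_normalizer_iff]
  intro x
  have e : x ∈ centralizer ({t} : Set G) ↔ g * x * g⁻¹ ∈ centralizer ({g * t * g⁻¹} : Set G) := by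
    rw [mem_centralizer_singleton_iff, mem_centralizer_singleton_iff, ← (MulAut.conj g).injective.eq_iff]
    simp only [map_mul, MulAut.conj_apply]
  rw [centralizer_eq h ht htA, h1] at e
  exact e

theorem conj_mem_A {d a : G} (hd : d ∈ MT T) (ha : a ∈ AT T) : d * a * d⁻¹ ∈ AT T :=
  (mem_normalizer_iff.1 hd a).1 ha

/-- The involutions of `MT T` lie in `AT T`. -/
theorem invol_mem_A {s : G} (hs : orderOf s = 2) (hsM : s ∈ MT T) : s ∈ AT T := by
  obtain ⟨t, ht, htA⟩ := exists_invol h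
  have hinv := inv_eq_of_orderOf hs
  have hs2 := mul_self_of_orderOf hs
  have ht' : s * t * s ∈ AT T := by
    have := conj_mem_A h hsM htA
    rwa [hinv] at this
  obtain ⟨r, hr, hrA, hrs⟩ : ∃ r : G, orderOf r = 2 ∧ r ∈ AT T ∧ s * r * s = r := by
    by_cases e : s * t * s = t
    · exact ⟨t, ht, htA, e⟩
    · refine ⟨t * (s * t * s), orderOf_eq_two ?_ fun e1 => e ?_, mul_mem htA ht', ?_⟩
      · calc t * (s * t * s) * (t * (s * t * s)) = t * ((s * t * s) * t) * (s * t * s) := by group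
          _ = t * (t * (s * t * s)) * (s * t * s) := by rw [A_comm h ht' htA]
          _ = (t * t) * (s * t * (s * s) * t * s) := by group
          _ = 1 := by rw [hs2, mul_one, mul_assoc s t t, mul_self_of_orderOf ht, one_mul, mul_one, hs2]
      · have := eq_inv_of_mul_eq_one_right e1
        rwa [inv_eq_of_orderOf ht] at this
      · calc s * (t * (s * t * s)) * s = (s * t * s) * (t * (s * s)) := by group
          _ = (s * t * s) * t := by rw [hs2, mul_one]
          _ = _ := A_comm h ht' htA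
  rw [← centralizer_eq h hr hrA]
  refine mem_centralizer_singleton_iff.2 ?_
  calc s * r = s * r * (s * s) := by rw [hs2, mul_one]
    _ = s * r * s * s := by group
    _ = r * s := by rw [hrs]

theorem M_ne_top : MT T ≠ ⊤ := by
  intro htop
  refine h.notNormal ⟨fun x hx g => ?_⟩
  obtain ⟨k, hk⟩ := T.isPGroup' ⟨x, hx⟩
  refine mem_T h (conj_mem_A h (d := g) (by rw [htop]; trivial) (T_le h hx)) (k := k) ?_
  have hx1 : x ^ 2 ^ k = 1 := congrArg Subtype.val hk
  rw [conj_pow, hx1, mul_one, mul_inv_cancel]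

theorem stronglyEmbedded : Cfsg.IsStronglyEmbedded (MT T) := by
  obtain ⟨t, ht, htA⟩ := exists_invol h
  refine stronglyEmbedded_of_forall (M_ne_top h) ?_ fun s hs ho g hg => ?_
  · exact even_iff_two_dvd.2 (ht ▸ orderOf_dvd_natCard _ (le_normalizer htA))
  · exact mem_M_of_conj h ho (invol_mem_A h ho hs) (invol_mem_A h ((orderOf_conj g s).trans ho) hg)

theorem exists_outside : ∃ w : G, orderOf w = 2 ∧ w ∉ MT T := by
  obtain ⟨g, -, hg⟩ := SetLike.exists_of_lt (lt_top_iff_ne_top.2 (M_ne_top h))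
  obtain ⟨t, ht, htA⟩ := exists_invol h
  refine ⟨g * t * g⁻¹, (orderOf_conj g t).trans ht, fun hmem => hg ?_⟩
  exact mem_M_of_conj h ht htA (invol_mem_A h ((orderOf_conj g t).trans ht) hmem)

theorem exists_conj {s t : G} (hs : orderOf s = 2) (ht : orderOf t = 2) : ∃ g : G, g * s * g⁻¹ = t := by
  obtain ⟨w, hw, hwM⟩ := exists_outside h
  obtain ⟨r, hr, hrA⟩ := exists_invol h
  exact isConj_iff.1 ((Cfsg.Agent.S1225.result _ (stronglyEmbedded h) w hw hwM r r hr (le_normalizer hrA)
    hr (le_normalizer hrA)).2 s t hs ht)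

/-- The odd elements of `MT T ∩ w (MT T) w`. -/
theorem odd_of_mem {w d : G} (hw : orderOf w = 2) (hwM : w ∉ MT T) (hd : d ∈ MT T) (hd' : w * d * w ∈ MT T) :
    Odd (orderOf d) := by
  have hodd := (stronglyEmbedded h).2.2 w hwM
  refine hodd.of_dvd_nat (orderOf_dvd_natCard _ ⟨hd, w * d * w, hd', ?_⟩)
  have hw' := mul_self_of_orderOf hw
  show w * (w * d * w) * w⁻¹ = d
  rw [show w * (w * d * w) * w⁻¹ = (w * w) * d by group, hw', one_mul]

theorem eq_one_of_sq {w d : G} (hw : orderOf w = 2) (hwM : w ∉ MT T) (hd : d ∈ MT T) (hd' : w * d * w ∈ MT T)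
    (h2 : d ^ 2 = 1) : d = 1 := by
  rw [← orderOf_eq_one_iff]
  exact Nat.eq_one_of_dvd_coprimes (Nat.coprime_two_left.2 (odd_of_mem h hw hwM hd hd'))
    (orderOf_dvd_of_pow_eq_one h2) dvd_rfl

omit h in
theorem inverted_mem {w j : G} (hj : j ∈ MT T) (hwj : w * j * w = j⁻¹) : w * j * w ∈ MT T :=
  hwj ▸ inv_mem hj

/-- Only the identity of `AT T` is inverted by an involution outside `MT T`. -/
theorem inverted_eq_one {w j : G} (hw : orderOf w = 2) (hwM : w ∉ MT T) (hj : j ∈ AT T)
    (hwj : w * j * w = j⁻¹) : j = 1 := by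
  obtain ⟨t, ht, htA⟩ := exists_invol h
  have hw' := mul_self_of_orderOf hw
  have hwi := inv_eq_of_orderOf hw
  set i := w * t * w
  have hi : orderOf i = 2 := by
    have h1 := orderOf_conj w t
    rwa [hwi, ht] at h1
  have hiM : i ∉ MT T := fun hiM => hwM (mem_M_of_conj h ht htA (by rw [hwi]; exact invol_mem_A h hi hiM))
  have hwj' : w * j = j⁻¹ * w := by
    calc w * j = w * j * (w * w) := by rw [hw', mul_one]
      _ = (w * j * w) * w := by group
      _ = _ := by rw [hwj]
  have e : w * j * t * (w * j) = i := by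
    calc w * j * t * (w * j) = w * (j * t) * (w * j) := by group
      _ = w * (t * j) * (j⁻¹ * w) := by rw [A_comm h hj htA, hwj']
      _ = w * t * w := by group
  have hwjo : orderOf (w * j) = 2 := orderOf_eq_two (by rw [← mul_assoc, hwj, inv_mul_cancel]) fun e1 => hwM
    (by rw [eq_inv_of_mul_eq_one_left e1]; exact inv_mem (le_normalizer hj))
  have := (existsUnique_midpoint (stronglyEmbedded h) ht (le_normalizer htA) hi hiM).unique ⟨hwjo, e⟩ ⟨hw, rfl⟩
  exact mul_eq_left.1 this

/-- Each coset of `AT T` in `MT T` contains an element inverted by a given involution outside. -/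
theorem exists_inverted {w : G} (hw : orderOf w = 2) (hwM : w ∉ MT T) {d : G} (hd : d ∈ MT T) :
    ∃ j ∈ MT T, w * j * w = j⁻¹ ∧ j⁻¹ * d ∈ AT T := by
  classical
  obtain ⟨t, ht, htA⟩ := exists_invol h
  have hse := stronglyEmbedded h
  have htM : t ∈ MT T := le_normalizer htA
  have hwi := inv_eq_of_orderOf hw
  have hw' := mul_self_of_orderOf hw
  have hconj : ∀ {j : G}, j ∈ MT T → orderOf (j * t * j⁻¹) = 2 ∧ j * t * j⁻¹ ∈ MT T := fun {j} hj =>
    ⟨(orderOf_conj j t).trans ht, le_normalizer (conj_mem_A h hj htA)⟩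
  let f : {v : G // orderOf v = 2 ∧ w⁻¹ * v ∈ MT T} → {s : G // orderOf s = 2 ∧ s ∈ MT T} := fun v =>
    ⟨_, hconj v.2.2⟩
  have hcard := card_involutions_coset hse hwM
  have hinv : ∀ v : {v : G // orderOf v = 2 ∧ w⁻¹ * v ∈ MT T}, (w⁻¹ * v.1)⁻¹ = v.1 * w := fun v => by
    rw [mul_inv_rev, inv_inv, inv_eq_of_orderOf v.2.1]
  have hinj : Function.Injective f := by
    rintro ⟨v₁, hv₁, hv₁'⟩ ⟨v₂, hv₂, hv₂'⟩ e
    have e' : w⁻¹ * v₁ * t * (w⁻¹ * v₁)⁻¹ = w⁻¹ * v₂ * t * (w⁻¹ * v₂)⁻¹ := congrArg Subtype.val e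
    rw [hinv ⟨v₁, hv₁, hv₁'⟩, hinv ⟨v₂, hv₂, hv₂'⟩] at e'
    have e'' : v₁ * t * v₁ = v₂ * t * v₂ := by
      refine mul_right_cancel (b := w) ?_
      simpa [mul_assoc] using e'
    have hi : orderOf (v₁ * t * v₁) = 2 := by
      have h1 := orderOf_conj v₁ t
      rwa [inv_eq_of_orderOf hv₁, ht] at h1
    have hiM : v₁ * t * v₁ ∉ MT T := fun hiM => hwM (by
      have hv : v₁ ∈ MT T := mem_M_of_conj h ht htA
        (by rw [inv_eq_of_orderOf hv₁]; exact invol_mem_A h hi hiM)
      have := mul_mem hv (inv_mem hv₁')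
      rwa [mul_inv_rev, inv_inv, mul_inv_cancel_left] at this)
    exact Subtype.ext ((existsUnique_midpoint hse ht htM hi hiM).unique ⟨hv₁, rfl⟩ ⟨hv₂, e''.symm⟩)
  haveI := Fintype.ofFinite {v : G // orderOf v = 2 ∧ w⁻¹ * v ∈ MT T}
  haveI := Fintype.ofFinite {s : G // orderOf s = 2 ∧ s ∈ MT T}
  have hbij := (Fintype.bijective_iff_injective_and_card f).2
    ⟨hinj, by rw [← Nat.card_eq_fintype_card, ← Nat.card_eq_fintype_card, hcard]⟩
  obtain ⟨⟨v, hv, hv'⟩, hvt⟩ := hbij.2 ⟨_, hconj hd⟩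
  have e' : w⁻¹ * v * t * (w⁻¹ * v)⁻¹ = d * t * d⁻¹ := congrArg Subtype.val hvt
  refine ⟨w⁻¹ * v, hv', ?_, ?_⟩
  · rw [hinv ⟨v, hv, hv'⟩]
    show w * (w⁻¹ * v) * w = v * w
    group
  · rw [← centralizer_eq h ht htA, mem_centralizer_singleton_iff]
    generalize w⁻¹ * v = j at e'
    calc j⁻¹ * d * t = j⁻¹ * (d * t * d⁻¹) * d := by group
      _ = j⁻¹ * (j * t * j⁻¹) * d := by rw [e']
      _ = _ := by group

/-- Some non-identity element of `MT T` outside `AT T` is inverted by a given involution outside. -/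
theorem exists_inverted_ne {w : G} (hw : orderOf w = 2) (hwM : w ∉ MT T) :
    ∃ j ∈ MT T, w * j * w = j⁻¹ ∧ j ∉ AT T := by
  obtain ⟨s, t, hs, hsA, ht, htA, hne⟩ := exists_two_invol h
  obtain ⟨d, hd, hde⟩ := (Cfsg.Agent.S1225.result _ (stronglyEmbedded h) w hw hwM s t hs (le_normalizer hsA)
    ht (le_normalizer htA)).1
  obtain ⟨j, hj, hwj, hjA⟩ := exists_inverted h hw hwM hd.1
  refine ⟨j, hj, hwj, fun hjA' => hne ?_⟩
  have hdA : d ∈ AT T := by
    have := mul_mem hjA' hjA
    rwa [mul_inv_cancel_left] at this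
  rw [← hde, A_comm h hdA hsA, mul_inv_cancel_right]

/-- A subgroup containing `AT T` and all involutions is everything. -/
theorem eq_top_of_le {X : Subgroup G} (hA : AT T ≤ X) (hI : ∀ s : G, orderOf s = 2 → s ∈ X) : X = ⊤ := by
  refine eq_top_iff.2 fun g _ => ?_
  obtain ⟨t, ht, htA⟩ := exists_invol h
  have hgt : orderOf (g * t * g⁻¹) = 2 := (orderOf_conj g t).trans ht
  have hse := stronglyEmbedded h
  obtain ⟨n, hnX, hn⟩ : ∃ n ∈ X, n * t * n⁻¹ = g * t * g⁻¹ := by
    by_cases hmem : g * t * g⁻¹ ∈ MT T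
    · obtain ⟨w, hw, hwM⟩ := exists_outside h
      obtain ⟨v₁, ⟨hv₁, hv₁e⟩, -⟩ := existsUnique_midpoint hse ht (le_normalizer htA) hw hwM
      obtain ⟨v₂, ⟨hv₂, hv₂e⟩, -⟩ := existsUnique_midpoint hse hgt hmem hw hwM
      refine ⟨v₂ * v₁, mul_mem (hI _ hv₂) (hI _ hv₁), ?_⟩
      rw [mul_inv_rev, inv_eq_of_orderOf hv₁, inv_eq_of_orderOf hv₂]
      calc v₂ * v₁ * t * (v₁ * v₂) = v₂ * (v₁ * t * v₁) * v₂ := by group
        _ = v₂ * (v₂ * (g * t * g⁻¹) * v₂) * v₂ := by rw [hv₁e, hv₂e]
        _ = (v₂ * v₂) * (g * t * g⁻¹) * (v₂ * v₂) := by group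
        _ = _ := by rw [mul_self_of_orderOf hv₂, one_mul, mul_one]
    · obtain ⟨v, ⟨hv, hve⟩, -⟩ := existsUnique_midpoint hse ht (le_normalizer htA) hgt hmem
      exact ⟨v, hI _ hv, by rw [inv_eq_of_orderOf hv, hve]⟩
  have : n⁻¹ * g ∈ AT T := by
    rw [← centralizer_eq h ht htA, mem_centralizer_singleton_iff]
    calc n⁻¹ * g * t = n⁻¹ * (g * t * g⁻¹) * g := by group
      _ = n⁻¹ * (n * t * n⁻¹) * g := by rw [hn]
      _ = _ := by group
  have := mul_mem hnX (hA this)
  rwa [mul_inv_cancel_left] at this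

/-- A subset of `AT T` commuting with every involution is central. -/
theorem mem_center_of {a : G} (ha : a ∈ AT T) (hI : ∀ s : G, orderOf s = 2 → s * a = a * s) : a ∈ center G := by
  have htop := eq_top_of_le h (X := centralizer ({a} : Set G))
    (fun b hb => mem_centralizer_singleton_iff.2 (A_comm h hb ha))
    (fun s hs => mem_centralizer_singleton_iff.2 (hI s hs))
  exact mem_center_iff.2 fun g => mem_centralizer_singleton_iff.1 (htop.ge (Subgroup.mem_top g))

theorem center_le_AT : center G ≤ AT T := fun _ hz =>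
  mem_centralizer_iff.2 fun g _ => mem_center_iff.1 hz g

theorem center_no_invol {t : G} (ht : orderOf t = 2) : t ∉ center G := by
  intro hz
  obtain ⟨w, -, hwM⟩ := exists_outside h
  refine hwM (mem_M_of_conj h ht (center_le_AT h hz) ?_)
  rw [mem_center_iff.1 hz w, mul_inv_cancel_right]
  exact center_le_AT h hz

/-- A normal subgroup contained in `MT T` is central. -/
theorem normal_le_center {R : Subgroup G} [hR : R.Normal] (hRM : R ≤ MT T) : R ≤ center G := by
  have hno : ∀ s : G, orderOf s = 2 → s ∉ R := by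
    intro s hs hsR
    obtain ⟨w, hw, hwM⟩ := exists_outside h
    obtain ⟨g, rfl⟩ := exists_conj h hs hw
    exact hwM (hRM (hR.conj_mem s hsR g))
  obtain ⟨t, ht, htA⟩ := exists_invol h
  have key : ∀ k ∈ R, t * k = k * t := by
    intro k hk
    have hk' : k * t * k⁻¹ ∈ AT T := conj_mem_A h (hRM hk) htA
    have hc : t * (k * t * k⁻¹) ∈ R := by
      have h1 := R.mul_mem (hR.conj_mem k hk t) (R.inv_mem hk)
      rw [inv_eq_of_orderOf ht] at h1
      rwa [show t * (k * t * k⁻¹) = t * k * t * k⁻¹ by group]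
    by_contra hne
    refine hno _ (orderOf_eq_two ?_ fun e => hne ?_) hc
    · calc t * (k * t * k⁻¹) * (t * (k * t * k⁻¹)) = t * ((k * t * k⁻¹) * t) * (k * t * k⁻¹) := by group
        _ = t * (t * (k * t * k⁻¹)) * (k * t * k⁻¹) := by rw [A_comm h hk' htA]
        _ = (t * t) * k * (t * t) * k⁻¹ := by group
        _ = 1 := by rw [mul_self_of_orderOf ht, one_mul, mul_one, mul_inv_cancel]
    · have e' := eq_inv_of_mul_eq_one_right e
      rw [inv_eq_of_orderOf ht] at e'
      calc t * k = k * t * k⁻¹ * k := by rw [e']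
        _ = _ := by group
  intro k hk
  refine mem_center_of h ?_ fun s hs => ?_
  · rw [← centralizer_eq h ht htA, mem_centralizer_singleton_iff]
    exact (key k hk).symm
  · obtain ⟨g, rfl⟩ := exists_conj h ht hs
    have h1 := key _ (hR.conj_mem k hk g⁻¹)
    rw [inv_inv] at h1
    calc g * t * g⁻¹ * k = g * (t * (g⁻¹ * k * g)) * g⁻¹ := by group
      _ = g * (g⁻¹ * k * g * t) * g⁻¹ := by rw [h1]
      _ = _ := by group

theorem core_eq_center : (MT T).normalCore = center G :=
  le_antisymm (normal_le_center h (normalCore_le _))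
    (Subgroup.normal_le_normalCore.2 ((center_le_AT h).trans le_normalizer))

/-- The hypotheses pass to subgroups containing `AT T` and not contained in `MT T`. -/
theorem subgroup {X : Subgroup G} (hA : AT T ≤ X) (hX : ¬ X ≤ MT T) :
    Hy (T.subtype ((T_le h).trans hA)) := by
  refine ⟨h.ai.subgroup X, fun hc => h.notCyclic ?_, fun hn => hX fun x hx => ?_⟩
  · haveI : IsCyclic (((T : Subgroup G)).subgroupOf X) := hc
    exact (subgroupOfEquivOfLe ((T_le h).trans hA)).isCyclic.1 inferInstance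
  · obtain ⟨z, hzT, hz, -⟩ := exists_center_invol h
    exact mem_M_of_conj h hz (T_le h hzT)
      (T_le h (hn.conj_mem ⟨z, hA (T_le h hzT)⟩ (show z ∈ (T : Subgroup G) from hzT) ⟨x, hx⟩))

end

end CfsgLib.AbInv
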