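import Cfsg.Agent.CA.AbelianInv.Basic
import Cfsg.Agent.Invol.ElemCentralizerPSL
import Mathlib.RingTheory.IntegralDomain

/-!
# Lifting the structure through the centre
-/

set_option autoImplicit false
set_option linter.style.haveILetI false
set_option linter.unusedSectionVars false

namespace CfsgLib.AbInv

open Subgroup CfsgLib.Invol

universe u

/-- The two-point stabiliser of an elementary group is cyclic. -/
theorem isCyclic_two {X : Type u} [Group X] [Finite X] {S : Sylow 2 X} (hS : ElemCentralizer.Hyp S) {w : X}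
    (hw : orderOf w = 2) (hwH : w ∉ ElemCentralizer.pt S) : IsCyclic (ElemCentralizer.two S w) := by
  classical
  obtain ⟨R, _, _, τ, -, hτinj, hadd, hτmem, hτsurj, hD, -⟩ := ElemCentralizer.exists_field hS hw hwH
  choose r hr0 hr using fun c : ElemCentralizer.two S w => hD c c.2
  obtain ⟨a₀, ha₀⟩ : ∃ a : R, τ a ≠ 1 := by
    obtain ⟨t, htS, ht⟩ := ElemCentralizer.exists_invol hS
    obtain ⟨a, ha⟩ := hτsurj t htS
    exact ⟨a, fun e => ne_one_of_orderOf ht (ha ▸ e)⟩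
  have ha₀0 : a₀ ≠ 0 := by
    rintro rfl
    have h1 := hadd 0 0
    rw [add_zero] at h1
    exact ha₀ (left_eq_mul.1 h1)
  let f : ElemCentralizer.two S w →* R :=
    { toFun := r
      map_one' := by
        refine mul_right_cancel₀ ha₀0 (hτinj ?_)
        rw [← hr]
        simp
      map_mul' := fun c d => by
        refine mul_right_cancel₀ ha₀0 (hτinj ?_)
        rw [mul_assoc (r c), ← hr, ← hr, ← hr]
        show (c : X) * d * τ a₀ * ((c : X) * d)⁻¹ = _
        group }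
  refine isCyclic_of_injective_ringHom f fun c d e => ?_
  have e' : r c = r d := e
  have h1 : (c : X) * τ a₀ * (c : X)⁻¹ = (d : X) * τ a₀ * (d : X)⁻¹ := by rw [hr, hr, e']
  have hcomm : Commute ((d : X)⁻¹ * c) (τ a₀) := by
    calc (d : X)⁻¹ * c * τ a₀ = (d : X)⁻¹ * ((c : X) * τ a₀ * (c : X)⁻¹) * c := by group
      _ = (d : X)⁻¹ * ((d : X) * τ a₀ * (d : X)⁻¹) * c := by rw [h1]
      _ = _ := by group
  have := ElemCentralizer.eq_one_of_commute hS hwH (mul_mem (inv_mem d.2) c.2)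
    (ElemCentralizer.orderOf_of_mem hS (hτmem a₀) ha₀) hcomm
  exact Subtype.ext (inv_mul_eq_one.1 this).symm

variable {G : Type u} [Group G] [Finite G] {T : Sylow 2 G} (h : Hy T)
include h

theorem sq_center {z : G} (hz : z ∈ center G) {k : ℕ} (hk : z ^ 2 ^ k = 1) : z = 1 := by
  by_contra hne
  obtain ⟨i, -, hi⟩ := (Nat.dvd_prime_pow Nat.prime_two).1 (orderOf_dvd_of_pow_eq_one hk)
  cases i with
  | zero => exact hne (orderOf_eq_one_iff.1 hi)
  | succ i =>
    refine center_no_invol h (t := z ^ 2 ^ i) (orderOf_eq_two ?_ fun e => ?_) (pow_mem hz _)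
    · rw [← pow_add, ← two_mul, ← pow_succ', ← hi, pow_orderOf_eq_one]
    · have h1 := Nat.le_of_dvd (pow_pos two_pos i) (orderOf_dvd_of_pow_eq_one e)
      rw [hi, pow_succ] at h1
      have : 0 < 2 ^ i := pow_pos two_pos i
      omega

theorem odd_card_center : Odd (Nat.card (center G)) := by
  rw [← Nat.not_even_iff_odd]
  intro he
  obtain ⟨t, htZ, ht⟩ := exists_involution_of_even he
  exact center_no_invol h ht htZ

set_option maxHeartbeats 800000 in
theorem split_of_quotient (IH : ∀ (S : Sylow 2 (G ⧸ center G)), Hy S → Split (G ⧸ center G)) : Split G := by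
  classical
  haveI : Fact (Nat.Prime 2) := ⟨Nat.prime_two⟩
  set π := QuotientGroup.mk' (center G) with hπ
  have hsurj : Function.Surjective π := QuotientGroup.mk'_surjective _
  have hker : ∀ {x : G}, π x = 1 ↔ x ∈ center G := fun {x} => QuotientGroup.eq_one_iff x
  have heq : ∀ {x y : G}, π x = π y → ∃ z ∈ center G, x = y * z := fun {x y} e =>
    ⟨y⁻¹ * x, hker.1 (by rw [map_mul, map_inv, e, inv_mul_cancel]), (mul_inv_cancel_left y x).symm⟩
  obtain ⟨t₀, ht₀T, ht₀, -⟩ := exists_center_invol h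
  have hinvol : ∀ {t : G}, orderOf t = 2 → orderOf (π t) = 2 := fun {t} ht =>
    orderOf_eq_two (by rw [← map_mul, mul_self_of_orderOf ht, map_one]) fun e => center_no_invol h ht (hker.1 e)
  have hlift : ∀ x : G ⧸ center G, orderOf x = 2 → ∃ t : G, orderOf t = 2 ∧ π t = x := by
    intro x hx
    obtain ⟨y, rfl⟩ := hsurj x
    have hy2 : y * y ∈ center G := hker.1 (by rw [map_mul, mul_self_of_orderOf hx])
    obtain ⟨k, hk⟩ := (odd_card_center h).of_dvd_nat (orderOf_dvd_natCard _ hy2)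
    have hπk : π (y ^ (2 * k + 1)) = π y := by
      rw [map_pow, pow_succ, pow_mul, sq, mul_self_of_orderOf hx, one_pow, one_mul]
    refine ⟨y ^ (2 * k + 1), orderOf_eq_two ?_ fun e => ne_one_of_orderOf hx ?_, hπk⟩
    · rw [← pow_add, ← two_mul, pow_mul, sq, ← hk, pow_orderOf_eq_one]
    · rw [← hπk, e, map_one]
  have hcent : ∀ {t c : G}, orderOf t = 2 → π c * π t = π t * π c → c * t = t * c := by
    intro t c ht hc
    obtain ⟨z, hz, e⟩ := heq (x := c * t * c⁻¹) (y := t) (by rw [map_mul, map_mul, map_inv, hc, mul_inv_cancel_right])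
    have h1 : z * z = 1 := by
      have h2 : (t * z) * (t * z) = 1 := by rw [← e, show c * t * c⁻¹ * (c * t * c⁻¹) = c * (t * t) * c⁻¹ by group,
          mul_self_of_orderOf ht, mul_one, mul_inv_cancel]
      rwa [mul_assoc, ← mul_assoc z t z, ← mem_center_iff.1 hz t, mul_assoc t z z, ← mul_assoc,
        mul_self_of_orderOf ht, one_mul] at h2
    rw [sq_center h hz (k := 1) (by rw [pow_one, sq]; exact h1), mul_one] at e
    exact mul_inv_eq_iff_eq_mul.1 e
  set S : Sylow 2 (G ⧸ center G) := T.mapSurjective hsurj with hSdef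
  have hS : ∀ {x : G ⧸ center G}, x ∈ (S : Subgroup (G ⧸ center G)) ↔ ∃ s ∈ (T : Subgroup G), π s = x := fun {x} => by
    rw [hSdef, Sylow.coe_mapSurjective]; exact Subgroup.mem_map
  have hS_M : ∀ {g : G}, π g * π t₀ * (π g)⁻¹ ∈ (S : Subgroup (G ⧸ center G)) → g ∈ MT T := by
    intro g hg
    obtain ⟨s, hs, e⟩ := hS.1 hg
    rw [← map_inv, ← map_mul, ← map_mul] at e
    obtain ⟨z, hz, e'⟩ := heq e.symm
    have hzc : Commute s z := mem_center_iff.1 hz s
    obtain ⟨k, hk⟩ := T.isPGroup' ⟨s, hs⟩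
    have hk' : s ^ 2 ^ k = 1 := congrArg Subtype.val hk
    have : z ^ 2 ^ (k + 1) = 1 := by
      have h2 : (s * z) ^ 2 ^ (k + 1) = 1 := by
        rw [← e', conj_pow, pow_succ', pow_mul, sq, mul_self_of_orderOf ht₀, one_pow, mul_one, mul_inv_cancel]
      rwa [hzc.mul_pow, pow_succ 2 k, pow_mul, hk', one_pow, one_mul] at h2
    rw [sq_center h hz this, mul_one] at e'
    exact mem_M_of_conj h ht₀ (T_le h ht₀T) (e' ▸ T_le h hs)
  have hySy : Hy S := by
    refine ⟨fun x hx a ha b hb => ?_, fun hc => h.notCyclic ?_, fun hn => M_ne_top h (eq_top_iff.2 fun g _ => hS_M ?_)⟩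
    · obtain ⟨t, ht, rfl⟩ := hlift x hx
      obtain ⟨a', rfl⟩ := hsurj a
      obtain ⟨b', rfl⟩ := hsurj b
      rw [← map_mul, ← map_mul, h.ai t ht a' (mem_centralizer_singleton_iff.2 (hcent ht (mem_centralizer_singleton_iff.1 ha))) b'
        (mem_centralizer_singleton_iff.2 (hcent ht (mem_centralizer_singleton_iff.1 hb)))]
    · haveI := hc
      refine isCyclic_of_injective ((π.comp (T : Subgroup G).subtype).codRestrict (S : Subgroup (G ⧸ center G))
        fun s => hS.2 ⟨s, s.2, rfl⟩) ((injective_iff_map_eq_one _).2 fun s hs => ?_)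
      obtain ⟨k, hk⟩ := T.isPGroup' s
      exact Subtype.ext (sq_center h (hker.1 (congrArg Subtype.val hs)) (congrArg Subtype.val hk))
    · exact hn.conj_mem _ (hS.2 ⟨t₀, ht₀T, rfl⟩) (π g)
  -- the quotient has trivial centre, so is elementary
  have hZbot : center (G ⧸ center G) = ⊥ := by
    refine eq_bot_iff.2 fun x hx => ?_
    obtain ⟨g, rfl⟩ := hsurj x
    have hc : ∀ s : G, orderOf s = 2 → s * g = g * s := fun s hs => (hcent hs (mem_center_iff.1 hx (π s)).symm).symm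
    refine mem_bot.2 (hker.2 (mem_center_of h ?_ hc))
    rw [← centralizer_eq h ht₀ (T_le h ht₀T), mem_centralizer_singleton_iff]
    exact (hc t₀ ht₀).symm
  obtain ⟨L₀, -, hsup, hel⟩ := IH S hySy
  rw [hZbot, sup_bot_eq] at hsup
  subst hsup
  have hel' : ∀ {t c : G}, orderOf t = 2 → c * t = t * c → c ^ 2 ∈ center G := fun {t c} ht hc => hker.1 (by
    rw [map_pow]
    exact hel _ (Subgroup.mem_top _) (hinvol ht) _ (Subgroup.mem_top _) (by rw [← map_mul, hc, map_mul]))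
  have hH : ElemCentralizer.Hyp S := ⟨hySy.notCyclic, hySy.notNormal, fun x hx =>
    ⟨⟨⟨fun a b => Subtype.ext (hySy.ai x hx a a.2 b b.2)⟩⟩, fun c hc =>
      hel x (Subgroup.mem_top _) hx c (Subgroup.mem_top _) (mem_centralizer_singleton_iff.1 hc)⟩⟩
  have hA : ∀ {a : G}, a ∈ AT T → ∃ s ∈ (T : Subgroup G), ∃ z ∈ center G, a = s * z := by
    intro a ha
    have ha2 := hel' ht₀ (AT_comm_T ha ht₀T).symm
    obtain ⟨k, hk⟩ := (odd_card_center h).of_dvd_nat (orderOf_dvd_natCard _ ha2)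
    refine ⟨a ^ (2 * k + 1), mem_T h (pow_mem ha _) (k := 1) ?_, ((a ^ 2) ^ k)⁻¹, inv_mem (pow_mem ha2 _), ?_⟩
    · rw [pow_one, ← pow_mul, mul_comm, pow_mul, ← hk, pow_orderOf_eq_one]
    · rw [← pow_mul, pow_succ', mul_inv_cancel_right]
  have hpt : ∀ {x : G}, π x ∈ ElemCentralizer.pt S ↔ x ∈ MT T := by
    intro x
    constructor
    · intro hx
      exact hS_M ((mem_normalizer_iff.1 hx _).1 (hS.2 ⟨t₀, ht₀T, rfl⟩))
    · intro hx
      refine Subgroup.mem_normalizer_fintype fun y hy => ?_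
      obtain ⟨s, hs, rfl⟩ := hS.1 hy
      obtain ⟨k, hk⟩ := T.isPGroup' ⟨s, hs⟩
      have h1 : s ^ 2 ^ k = 1 := congrArg Subtype.val hk
      exact hS.2 ⟨x * s * x⁻¹, mem_T h (conj_mem_A h hx (T_le h hs)) (k := k)
        (by rw [conj_pow, h1, mul_one, mul_inv_cancel]), by rw [map_mul, map_mul, map_inv]⟩
  obtain ⟨u, hu, huM⟩ := exists_outside h
  have hu2 := mul_self_of_orderOf hu
  have hπu := hinvol hu
  have hπuM : π u ∉ ElemCentralizer.pt S := fun e => huM (hpt.1 e)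
  set D := ElemCentralizer.two S (π u) with hD
  haveI hcyc : IsCyclic D := isCyclic_two hH hπu hπuM
  obtain ⟨g₁, hg₁⟩ := hcyc.exists_generator
  obtain ⟨g₀, hg₀⟩ := hsurj (g₁ : G ⧸ center G)
  have hDcomm : ∀ {x y : G}, π x ∈ D → π y ∈ D → x * y = y * x := by
    have key : ∀ {x : G}, π x ∈ D → ∃ (i : ℤ), ∃ z ∈ center G, x = g₀ ^ i * z := by
      intro x hx
      obtain ⟨i, hi⟩ := hg₁ ⟨π x, hx⟩
      refine ⟨i, heq ?_⟩
      rw [map_zpow, hg₀]
      exact (congrArg Subtype.val hi).symm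
    intro x y hx hy
    obtain ⟨i, z, hz, rfl⟩ := key hx
    obtain ⟨k, z', hz', rfl⟩ := key hy
    calc g₀ ^ i * z * (g₀ ^ k * z') = g₀ ^ i * (z * g₀ ^ k) * z' := by group
      _ = g₀ ^ i * (g₀ ^ k * z) * z' := by rw [mem_center_iff.1 hz]
      _ = (g₀ ^ i * g₀ ^ k) * (z * z') := by group
      _ = (g₀ ^ k * g₀ ^ i) * (z' * z) := by rw [← zpow_add, add_comm, zpow_add, mem_center_iff.1 hz' z]
      _ = g₀ ^ k * (g₀ ^ i * z') * z := by group
      _ = g₀ ^ k * (z' * g₀ ^ i) * z := by rw [mem_center_iff.1 hz']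
      _ = _ := by group
  have hmulu : ∀ p q : G, u * (p * q) * u = (u * p * u) * (u * q * u) := fun p q => by
    calc u * (p * q) * u = u * p * (u * u) * q * u := by rw [hu2]; group
      _ = _ := by group
  let J : Subgroup G :=
    { carrier := {x | π x ∈ D ∧ u * x * u = x⁻¹}
      one_mem' := ⟨by rw [map_one]; exact one_mem _, by rw [mul_one, hu2, inv_one]⟩
      mul_mem' := fun {x y} hx hy => ⟨by rw [map_mul]; exact mul_mem hx.1 hy.1, by
        rw [hmulu, hx.2, hy.2, ← mul_inv_rev, hDcomm hy.1 hx.1]⟩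
      inv_mem' := fun {x} hx => ⟨by rw [map_inv]; exact inv_mem hx.1, by
        rw [inv_inv]
        calc u * x⁻¹ * u = (u⁻¹ * x * u⁻¹)⁻¹ := by group
          _ = x := by rw [inv_eq_of_orderOf hu, hx.2, inv_inv]⟩ }
  have hJM : ∀ {j : G}, j ∈ J → j ∈ MT T := fun hj => hpt.1 hj.1.1
  have hJex : ∀ {x : G}, π x ∈ D → ∃ j ∈ J, ∃ z ∈ center G, x = j * z := by
    intro x hx
    obtain ⟨z, hz, e⟩ := heq (x := u * x * u) (y := x⁻¹) (by
      rw [map_inv, map_mul, map_mul, ← ElemCentralizer.inverts hH hπu hπuM hx, inv_eq_of_orderOf hπu])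
    obtain ⟨k, hk⟩ := (odd_card_center h).of_dvd_nat (orderOf_dvd_natCard _ hz)
    obtain ⟨r, hr⟩ : ∃ r, r = z ^ (k + 1) := ⟨_, rfl⟩
    have hrZ : r ∈ center G := hr ▸ pow_mem hz _
    have hr2 : r * r = z := by
      rw [hr, ← pow_add, show k + 1 + (k + 1) = orderOf z + 1 by omega, pow_succ, pow_orderOf_eq_one, one_mul]
    have hur : u * r⁻¹ * u = r⁻¹ := by
      rw [mem_center_iff.1 (inv_mem hrZ) u, mul_assoc, hu2, mul_one]
    refine ⟨x * r⁻¹, ⟨by rw [map_mul, hker.2 (inv_mem hrZ), mul_one]; exact hx, ?_⟩, r, hrZ, by group⟩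
    rw [hmulu, hur, e, ← hr2, mul_inv_rev, inv_inv, mem_center_iff.1 hrZ x⁻¹ |>.symm]
    group
  have hdecM : ∀ {x : G}, x ∈ MT T → ∃ j ∈ J, ∃ t ∈ (T : Subgroup G), ∃ z ∈ center G, x = j * t * z := by
    intro x hx
    obtain ⟨d, hd, a, ha, e⟩ := ElemCentralizer.decomp hH hπu hπuM (hpt.2 hx)
    obtain ⟨x', rfl⟩ := hsurj d
    obtain ⟨j, hj, z', hz', rfl⟩ := hJex hd
    obtain ⟨t, ht, rfl⟩ := hS.1 ha
    rw [map_mul, hker.2 hz', mul_one, ← map_mul] at e
    obtain ⟨z, hz, e'⟩ := heq e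
    exact ⟨j, hj, t, ht, z, hz, e'⟩
  have hdec : ∀ {x : G}, x ∉ MT T →
      ∃ t₁ ∈ (T : Subgroup G), ∃ j ∈ J, ∃ t ∈ (T : Subgroup G), ∃ z ∈ center G, x = t₁ * u * j * t * z := by
    intro x hx
    have hxne : (π x : (G ⧸ center G) ⧸ ElemCentralizer.pt S) ≠ ElemCentralizer.base S := fun e =>
      hx (hpt.1 (ElemCentralizer.eq_base_iff.1 e))
    have hune : (π u : (G ⧸ center G) ⧸ ElemCentralizer.pt S) ≠ ElemCentralizer.base S := fun e =>
      hπuM (ElemCentralizer.eq_base_iff.1 e)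
    obtain ⟨s, ⟨hs, hsx⟩, -⟩ := ElemCentralizer.regular hH hune hxne
    obtain ⟨t₁, ht₁, rfl⟩ := hS.1 hs
    rw [MulAction.Quotient.smul_coe, smul_eq_mul, QuotientGroup.eq, ← map_mul, ← map_inv, ← map_mul] at hsx
    obtain ⟨j, hj, t, ht, z, hz, e⟩ := hdecM (hpt.1 hsx)
    refine ⟨t₁, ht₁, j, hj, t, ht, z, hz, ?_⟩
    calc x = t₁ * u * ((t₁ * u)⁻¹ * x) := by group
      _ = t₁ * u * (j * t * z) := by rw [e]
      _ = _ := by group
  -- the complement
  let P : G → Prop := fun x => ∃ j ∈ J, ∃ t ∈ (T : Subgroup G), x = j * t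
  let Q : G → Prop := fun x => ∃ t₁ ∈ (T : Subgroup G), ∃ j ∈ J, ∃ t ∈ (T : Subgroup G), x = t₁ * u * j * t
  have hTn : ∀ {j t : G}, j ∈ J → t ∈ (T : Subgroup G) → j * t * j⁻¹ ∈ (T : Subgroup G) ∧ j⁻¹ * t * j ∈ (T : Subgroup G) := by
    intro j t hj ht
    obtain ⟨k, hk⟩ := T.isPGroup' ⟨t, ht⟩
    have h1 : t ^ 2 ^ k = 1 := congrArg Subtype.val hk
    refine ⟨mem_T h (conj_mem_A h (hJM hj) (T_le h ht)) (k := k) (by rw [conj_pow, h1, mul_one, mul_inv_cancel]), ?_⟩
    have h2 := mem_T h (conj_mem_A h (inv_mem (hJM hj)) (T_le h ht)) (k := k) (by rw [conj_pow, h1, mul_one, mul_inv_cancel])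
    rwa [inv_inv] at h2
  have hPP : ∀ {x y : G}, P x → P y → P (x * y) := by
    rintro x y ⟨j, hj, t, ht, rfl⟩ ⟨j', hj', t', ht', rfl⟩
    exact ⟨j * j', mul_mem hj hj', _, mul_mem (hTn hj' ht).2 ht', by group⟩
  have hQP : ∀ {x y : G}, Q x → P y → Q (x * y) := by
    rintro x y ⟨t₁, ht₁, j, hj, t, ht, rfl⟩ ⟨j', hj', t', ht', rfl⟩
    exact ⟨t₁, ht₁, j * j', mul_mem hj hj', _, mul_mem (hTn hj' ht).2 ht', by group⟩
  have hPQ : ∀ {x y : G}, P x → Q y → Q (x * y) := by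
    rintro x y ⟨j, hj, t, ht, rfl⟩ ⟨t₁, ht₁, j', hj', t', ht', rfl⟩
    refine ⟨j * (t * t₁) * j⁻¹, (hTn hj (mul_mem ht ht₁)).1, j⁻¹ * j', mul_mem (inv_mem hj) hj', t', ht', ?_⟩
    have e : j * u = u * j⁻¹ := by rw [← hj.2, ← mul_assoc, ← mul_assoc, hu2, one_mul]
    calc j * t * (t₁ * u * j' * t') = j * (t * t₁) * j⁻¹ * (j * u) * j' * t' := by group
      _ = j * (t * t₁) * j⁻¹ * (u * j⁻¹) * j' * t' := by rw [e]
      _ = _ := by group
  have hkey : ∀ {s : G}, s ∈ (T : Subgroup G) → s ≠ 1 → Q (u * s * u) := by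
    intro s hs hs1
    have hs2 : s * s = 1 := by
      have hsA := T_le h hs
      have h2 := hel' ht₀ (AT_comm_T hsA ht₀T).symm
      obtain ⟨k, hk⟩ := T.isPGroup' ⟨s, hs⟩
      have h1 : s ^ 2 ^ k = 1 := congrArg Subtype.val hk
      rw [← sq]
      exact sq_center h h2 (k := k) (by rw [← pow_mul, mul_comm, pow_mul, h1, one_pow])
    have hso : orderOf s = 2 := orderOf_eq_two hs2 hs1
    obtain ⟨v, hv⟩ : ∃ v, v = u * s * u := ⟨_, rfl⟩
    have hvo : orderOf v = 2 := by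
      have := orderOf_conj u s
      rwa [inv_eq_of_orderOf hu, ← hv, hso] at this
    have hvM : v ∉ MT T := fun e => huM (mem_M_of_conj h hso (T_le h hs)
      (by rw [inv_eq_of_orderOf hu, ← hv]; exact invol_mem_A h hvo e))
    obtain ⟨t₁, ht₁, j, hj, t, ht, z, hz, e⟩ := hdec hvM
    obtain ⟨x, hx⟩ : ∃ x, x = u * j := ⟨_, rfl⟩
    have hx2 : x * x = 1 := by rw [hx, ← mul_assoc, hj.2, inv_mul_cancel]
    have hv2 := mul_self_of_orderOf hvo
    rw [mul_assoc t₁ u j, ← hx] at e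
    have e2 : t₁ * (x * (t * t₁) * x) * t * (z * z) = 1 := by
      rw [← hv2, e]
      calc t₁ * (x * (t * t₁) * x) * t * (z * z) = t₁ * x * t * ((t₁ * x * t) * z) * z := by group
        _ = t₁ * x * t * (z * (t₁ * x * t)) * z := by rw [mem_center_iff.1 hz (t₁ * x * t)]
        _ = _ := by group
    have hp : t * t₁ = 1 := by
      by_contra hp
      have hpo : orderOf (t * t₁) = 2 := by
        refine orderOf_eq_two ?_ hp
        have hq := mul_mem ht ht₁
        have h2 := hel' ht₀ (AT_comm_T (T_le h hq) ht₀T).symm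
        obtain ⟨k, hk⟩ := T.isPGroup' ⟨_, hq⟩
        have h1 : (t * t₁) ^ 2 ^ k = 1 := congrArg Subtype.val hk
        rw [← sq]
        exact sq_center h h2 (k := k) (by rw [← pow_mul, mul_comm, pow_mul, h1, one_pow])
      have hxi : x⁻¹ = x := inv_eq_of_mul_eq_one_right hx2
      have hmem : x * (t * t₁) * x ∈ AT T := by
        have : x * (t * t₁) * x = t₁⁻¹ * ((t * (z * z))⁻¹) := by
          have := eq_inv_of_mul_eq_one_left (show t₁ * (x * (t * t₁) * x) * (t * (z * z)) = 1 by rw [← mul_assoc]; exact e2)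
          rw [← this, inv_mul_cancel_left]
        rw [this]
        exact mul_mem (inv_mem (T_le h ht₁)) (inv_mem (mul_mem (T_le h ht) (center_le_AT h (mul_mem hz hz))))
      have hxM : x ∈ MT T := mem_M_of_conj h hpo (T_le h (mul_mem ht ht₁)) (by rw [hxi]; exact hmem)
      apply huM
      have := (MT T).mul_mem hxM ((MT T).inv_mem (hJM hj))
      rwa [hx, mul_inv_cancel_right] at this
    have hz1 : z = 1 := by
      refine sq_center h hz (k := 1) ?_
      rw [pow_one, sq]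
      rw [hp, mul_one, hx2, mul_one] at e2
      rw [show t₁ * t = 1 from mul_eq_one_comm.1 hp, one_mul] at e2
      exact e2
    refine ⟨t₁, ht₁, j, hj, t, ht, ?_⟩
    rw [← hv, e, hz1, mul_one, hx, mul_assoc t₁ u j]
  have hQQ : ∀ {x y : G}, Q x → Q y → P (x * y) ∨ Q (x * y) := by
    rintro x y ⟨t₁, ht₁, j, hj, t, ht, rfl⟩ ⟨t₂, ht₂, j', hj', t', ht', rfl⟩
    obtain ⟨s, hs⟩ : ∃ s, s = j * (t * t₂) * j⁻¹ := ⟨_, rfl⟩
    have hsT : s ∈ (T : Subgroup G) := hs ▸ (hTn hj (mul_mem ht ht₂)).1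
    have e : j * u = u * j⁻¹ := by rw [← hj.2, ← mul_assoc, ← mul_assoc, hu2, one_mul]
    have hxy : t₁ * u * j * t * (t₂ * u * j' * t') = t₁ * (u * s * u) * ((j⁻¹ * j') * t') := by
      calc t₁ * u * j * t * (t₂ * u * j' * t') = t₁ * u * (j * (t * t₂) * j⁻¹) * (j * u) * j' * t' := by group
        _ = t₁ * u * s * (u * j⁻¹) * j' * t' := by rw [e, hs]
        _ = _ := by group
    rw [hxy]
    have hP' : P ((j⁻¹ * j') * t') := ⟨_, mul_mem (inv_mem hj) hj', t', ht', rfl⟩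
    have hPt : P t₁ := ⟨1, one_mem _, t₁, ht₁, (one_mul _).symm⟩
    by_cases hs1 : s = 1
    · left
      rw [hs1, mul_one, hu2, mul_one]
      exact hPP hPt hP'
    · right
      exact hQP (hPQ hPt (hkey hsT hs1)) hP'
  let L' : Submonoid G :=
    { carrier := {x | P x ∨ Q x}
      one_mem' := Or.inl ⟨1, one_mem _, 1, one_mem _, (one_mul 1).symm⟩
      mul_mem' := by
        rintro x y (hx | hx) (hy | hy)
        exacts [Or.inl (hPP hx hy), Or.inr (hPQ hx hy), Or.inr (hQP hx hy), hQQ hx hy] }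
  let L : Subgroup G :=
    { L' with
      inv_mem' := fun {x} hx => by
        have : x⁻¹ = x ^ (orderOf x - 1) := inv_eq_of_mul_eq_one_left (by
          rw [← pow_succ, Nat.sub_add_cancel (orderOf_pos x), pow_orderOf_eq_one])
        show x⁻¹ ∈ L'
        rw [this]
        exact pow_mem (show x ∈ L' from hx) _ }
  have hinf : L ⊓ center G = ⊥ := by
    refine eq_bot_iff.2 ?_
    rintro x ⟨hx | hx, hxZ : x ∈ center G⟩
    · obtain ⟨j, hj, t, ht, rfl⟩ := hx
      have hjA : j ∈ AT T := by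
        have := (AT T).mul_mem (center_le_AT h hxZ) ((AT T).inv_mem (T_le h ht))
        rwa [mul_inv_cancel_right] at this
      rw [inverted_eq_one h hu huM hjA hj.2, one_mul] at hxZ ⊢
      obtain ⟨k, hk⟩ := T.isPGroup' ⟨t, ht⟩
      exact mem_bot.2 (sq_center h hxZ (congrArg Subtype.val hk))
    · obtain ⟨t₁, ht₁, j, hj, t, ht, rfl⟩ := hx
      refine absurd ?_ huM
      have h1 : MT T ≥ center G := (center_le_AT h).trans le_normalizer
      have h2 := (MT T).mul_mem ((MT T).mul_mem ((MT T).inv_mem (le_normalizer (T_le h ht₁))) (h1 hxZ))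
        ((MT T).inv_mem ((MT T).mul_mem (hJM hj) (le_normalizer (T_le h ht))))
      rwa [show t₁⁻¹ * (t₁ * u * j * t) * (j * t)⁻¹ = u by group] at h2
  refine ⟨L, hinf, eq_top_iff.2 fun x _ => ?_, fun t htL ht c hcL hc => ?_⟩
  · by_cases hx : x ∈ MT T
    · obtain ⟨j, hj, t, ht, z, hz, rfl⟩ := hdecM hx
      exact mul_mem_sup (show j * t ∈ L from Or.inl ⟨j, hj, t, ht, rfl⟩) hz
    · obtain ⟨t₁, ht₁, j, hj, t, ht, z, hz, rfl⟩ := hdec hx
      exact mul_mem_sup (show t₁ * u * j * t ∈ L from Or.inr ⟨t₁, ht₁, j, hj, t, ht, rfl⟩) hz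
  · have : c ^ 2 ∈ L ⊓ center G := ⟨pow_mem hcL 2, hel' ht hc⟩
    rwa [hinf, mem_bot] at this

end CfsgLib.AbInv
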