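import Cfsg.Agent.CA.AbelianInv.Basic
import Cfsg.Agent.CA.EvenTI
import Mathlib.GroupTheory.FixedPointFree

/-!
# All centralisers of odd elements of `AT T` inside `MT T`
-/

set_option autoImplicit false
set_option linter.style.haveILetI false
set_option linter.unusedSectionVars false

namespace CfsgLib.AbInv

open Subgroup CfsgLib.Invol

universe u

variable {G : Type u} [Group G] [Finite G] {T : Sylow 2 G} (h : Hy T)
include h

omit h in
theorem exists_invol_pow {X : Type u} [Group X] [Finite X] {a : X} (he : Even (orderOf a)) : ∃ k : ℕ, orderOf (a ^ k) = 2 := by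
  obtain ⟨m, hm⟩ := he
  have hpos : 0 < orderOf a := orderOf_pos a
  exact ⟨m, orderOf_eq_two (by rw [← pow_add, ← hm, pow_orderOf_eq_one]) fun e => by
    have := Nat.le_of_dvd (by omega : 0 < m) (orderOf_dvd_of_pow_eq_one e)
    omega⟩

theorem split_of_sq (hZ : center G = ⊥) (hsq : ∀ a ∈ AT T, a ^ 2 = 1) : Split G := by
  refine ⟨⊤, by rw [hZ, inf_bot_eq], top_sup_eq _, fun t _ ht c _ hc => ?_⟩
  obtain ⟨s, hs, hsA⟩ := exists_invol h
  obtain ⟨g, rfl⟩ := exists_conj h hs ht
  have hgc : g⁻¹ * c * g ∈ centralizer ({s} : Set G) := mem_centralizer_singleton_iff.2 (by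
    calc g⁻¹ * c * g * s = g⁻¹ * (c * (g * s * g⁻¹)) * g := by group
      _ = g⁻¹ * (g * s * g⁻¹ * c) * g := by rw [hc]
      _ = _ := by group)
  rw [centralizer_eq h hs hsA] at hgc
  have h1 := hsq _ hgc
  calc c ^ 2 = (g * (g⁻¹ * c * g) * g⁻¹) ^ 2 := congrArg (· ^ 2) (by group)
    _ = 1 := by rw [conj_pow, h1, mul_one, mul_inv_cancel]

/-- A non-identity element of `AT T` which is real via an outside involution has trivial fixed points. -/
theorem typeTwo (hZ : center G = ⊥)
    (hII : ∀ a ∈ AT T, a ≠ 1 → Odd (orderOf a) → centralizer ({a} : Set G) ≤ MT T) : Split G := by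
  classical
  obtain ⟨t, ht, htA⟩ := exists_invol h
  obtain ⟨w, hw, hwM⟩ := exists_outside h
  have hw2 := mul_self_of_orderOf hw
  have hwi := inv_eq_of_orderOf hw
  -- pull an element commuting with an involution back into `AT T`
  have pull : ∀ {x c : G}, orderOf x = 2 → c * x = x * c → ∃ g, g * t * g⁻¹ = x ∧ g⁻¹ * c * g ∈ AT T := by
    intro x c hx hc
    obtain ⟨g, hg⟩ := exists_conj h ht hx
    refine ⟨g, hg, ?_⟩
    rw [← centralizer_eq h ht htA, mem_centralizer_singleton_iff]
    subst hg
    calc g⁻¹ * c * g * t = g⁻¹ * (c * (g * t * g⁻¹)) * g := by group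
      _ = g⁻¹ * (g * t * g⁻¹ * c) * g := by rw [hc]
      _ = _ := by group
  have horder : ∀ g c : G, orderOf (g⁻¹ * c * g) = orderOf c := fun g c => by
    have := orderOf_conj g⁻¹ c
    rwa [inv_inv] at this
  -- centralisers inside the normaliser
  have hCM : ∀ a ∈ AT T, a ≠ 1 → centralizer ({a} : Set G) ≤ AT T := by
    intro a ha ha1
    rcases Nat.even_or_odd (orderOf a) with he | ho
    · obtain ⟨k, hk⟩ := exists_invol_pow he
      rw [← centralizer_eq h hk (pow_mem ha k)]
      intro c hc
      exact mem_centralizer_singleton_iff.2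
        (((show Commute c a from mem_centralizer_singleton_iff.1 hc).pow_right k).eq)
    intro c hc
    have hcM := hII a ha ha1 ho hc
    by_contra hcA
    obtain ⟨j, hj, hwj, hjc⟩ := exists_inverted h hw hwM hcM
    have hjA : j ∉ AT T := fun hjA => hcA (by
      have := mul_mem hjA hjc
      rwa [mul_inv_cancel_left] at this)
    have hja : j * a = a * j := by
      have h1 : Commute c a := mem_centralizer_singleton_iff.1 hc
      have h2 : Commute (j⁻¹ * c) a := A_comm h hjc ha
      have h3 := h1.mul_left h2.inv_left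
      rwa [mul_inv_rev, inv_inv, mul_inv_cancel_left] at h3
    have hjodd : Odd (orderOf j) := odd_of_mem h hw hwM hj (inverted_mem hj hwj)
    have hj1 : j ≠ 1 := fun e => hjA (e ▸ one_mem _)
    -- `C(j)` has odd order
    have hno : ∀ x : G, orderOf x = 2 → x * j = j * x → False := by
      intro x hx hxj
      obtain ⟨g, hg, hjg⟩ := pull hx hxj.symm
      have hj'1 : g⁻¹ * j * g ≠ 1 := fun e => hj1 (by
        calc j = g * (g⁻¹ * j * g) * g⁻¹ := by group
          _ = 1 := by rw [e]; group)
      have hj'o : Odd (orderOf (g⁻¹ * j * g)) := by rwa [horder]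
      set w' := g⁻¹ * w * g with hw'
      have hw'o : orderOf w' = 2 := (horder g w).trans hw
      have hwj' : w' * (g⁻¹ * j * g) * w' = (g⁻¹ * j * g)⁻¹ := by
        calc w' * (g⁻¹ * j * g) * w' = g⁻¹ * (w * j * w) * g := by rw [hw']; group
          _ = g⁻¹ * j⁻¹ * g := by rw [hwj]
          _ = _ := by group
      by_cases hw'M : w' ∈ MT T
      · have hc' := A_comm h (invol_mem_A h hw'o hw'M) hjg
        rw [hc', mul_assoc, mul_self_of_orderOf hw'o, mul_one] at hwj'
        have h2 : (g⁻¹ * j * g) ^ 2 = 1 := by rw [sq]; exact mul_eq_one_iff_eq_inv.2 hwj'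
        have h4 := hj'o.of_dvd_nat dvd_rfl
        have h5 : orderOf (g⁻¹ * j * g) ∣ 2 := orderOf_dvd_of_pow_eq_one h2
        rcases (Nat.dvd_prime Nat.prime_two).1 h5 with h6 | h6
        · exact hj'1 (orderOf_eq_one_iff.1 h6)
        · rw [h6] at h4; exact absurd h4 (by decide)
      · exact hj'1 (inverted_eq_one h hw'o hw'M hjg hwj')
    have hodd : Odd (Nat.card (centralizer ({j} : Set G))) := by
      rw [← Nat.not_even_iff_odd]
      intro he
      obtain ⟨x, hxC, hx⟩ := exists_involution_of_even he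
      exact hno x hx (mem_centralizer_singleton_iff.1 hxC)
    -- `w` acts without fixed points on `C(j)`
    have hfree : ∀ b ∈ centralizer ({j} : Set G), w * b * w = b → b = 1 := by
      intro b hb hbw
      by_contra hb1
      have hbw' : b * w = w * b := by
        calc b * w = w * b * w * w := by rw [hbw]
          _ = _ := by rw [mul_assoc (w * b), hw2, mul_one]
      obtain ⟨g, hg, hbg⟩ := pull hw hbw'
      have hb'1 : g⁻¹ * b * g ≠ 1 := fun e => hb1 (by
        calc b = g * (g⁻¹ * b * g) * g⁻¹ := by group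
          _ = 1 := by rw [e]; group)
      have hbodd : Odd (orderOf (g⁻¹ * b * g)) := by
        rw [horder]
        exact hodd.of_dvd_nat (orderOf_dvd_natCard _ hb)
      have hj'M : g⁻¹ * j * g ∈ MT T := hII _ hbg hb'1 hbodd (mem_centralizer_singleton_iff.2 (by
        calc g⁻¹ * j * g * (g⁻¹ * b * g) = g⁻¹ * (j * b) * g := by group
          _ = g⁻¹ * (b * j) * g := by rw [mem_centralizer_singleton_iff.1 hb]
          _ = _ := by group))
      have htw : g⁻¹ * w * g = t := by rw [← hg]; group
      have hmem : g⁻¹ * j * g * t * (g⁻¹ * j * g)⁻¹ ∈ AT T := conj_mem_A h hj'M htA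
      have hsq : g⁻¹ * j⁻¹ * j⁻¹ * g ∈ AT T := by
        have := mul_mem (inv_mem htA) hmem
        rw [← htw] at this
        have e : (g⁻¹ * w * g)⁻¹ * (g⁻¹ * j * g * (g⁻¹ * w * g) * (g⁻¹ * j * g)⁻¹) =
            g⁻¹ * ((w⁻¹ * j * w) * j⁻¹) * g := by group
        rw [e, hwi, hwj] at this
        simpa [mul_assoc] using this
      have hc2 := A_comm h hsq htA
      rw [← htw] at hc2
      have h4 : w * (j⁻¹ * j⁻¹) * w = j⁻¹ * j⁻¹ := by
        have e1 : g⁻¹ * (j⁻¹ * j⁻¹ * w) * g = g⁻¹ * (w * (j⁻¹ * j⁻¹)) * g := by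
          calc g⁻¹ * (j⁻¹ * j⁻¹ * w) * g = g⁻¹ * j⁻¹ * j⁻¹ * g * (g⁻¹ * w * g) := by group
            _ = _ := hc2
            _ = _ := by group
        rw [← mul_left_cancel (mul_right_cancel e1), mul_assoc, hw2, mul_one]
      have h5 : w * (j⁻¹ * j⁻¹) * w = j * j := by
        calc w * (j⁻¹ * j⁻¹) * w = w⁻¹ * (j⁻¹ * j⁻¹) * w := by rw [hwi]
          _ = (w⁻¹ * j * w)⁻¹ * (w⁻¹ * j * w)⁻¹ := by group
          _ = _ := by rw [hwi, hwj, inv_inv]
      have h6 : j ^ (2 * 2) = 1 := by
        have e2 : j * j = j⁻¹ * j⁻¹ := h5.symm.trans h4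
        calc j ^ (2 * 2) = (j * j) * (j * j) := by rw [pow_mul, sq, sq]
          _ = (j * j) * (j⁻¹ * j⁻¹) := by rw [← e2]
          _ = 1 := by group
      refine hj1 (orderOf_eq_one_iff.1 (Nat.eq_one_of_dvd_coprimes (a := 2 ^ 2) ?_ (by rw [sq]; exact orderOf_dvd_of_pow_eq_one h6) dvd_rfl))
      exact (Nat.Coprime.pow_left 2 (Nat.coprime_two_left.2 hjodd) : (2 ^ 2).Coprime (orderOf j))
    -- hence it inverts `C(j)`
    let φ : centralizer ({j} : Set G) →* centralizer ({j} : Set G) :=
      MonoidHom.mk' (fun b => ⟨w * b * w, mem_centralizer_singleton_iff.2 (by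
        have hb : (b : G) * j⁻¹ = j⁻¹ * b := (show Commute (b : G) j from mem_centralizer_singleton_iff.1 b.2).inv_right
        have hjw : j * w = w * j⁻¹ := by
          calc j * w = w * (w * j * w) := by rw [← mul_assoc, ← mul_assoc, hw2, one_mul]
            _ = _ := by rw [hwj]
        have hwj2 : w * j = j⁻¹ * w := by
          calc w * j = (w * j * w) * w := by rw [mul_assoc (w * j), hw2, mul_one]
            _ = _ := by rw [hwj]
        calc w * b * w * j = w * b * (w * j) := by group
          _ = w * (b * j⁻¹) * w := by rw [hwj2]; group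
          _ = w * j⁻¹ * (b * w) := by rw [hb]; group
          _ = j * (w * b * w) := by rw [← hjw]; group)⟩) fun a b => Subtype.ext (by
        show w * ((a : G) * b) * w = w * a * w * (w * b * w)
        calc w * ((a : G) * b) * w = w * a * (w * w) * b * w := by rw [hw2]; group
          _ = _ := by group)
    have hφ : MonoidHom.FixedPointFree φ := fun b hb => Subtype.ext (hfree b b.2 (congrArg Subtype.val hb))
    have hinvol : Function.Involutive φ := fun b => Subtype.ext (by
      show w * (w * b * w) * w = b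
      calc w * (w * b * w) * w = (w * w) * b * (w * w) := by group
        _ = _ := by rw [hw2, one_mul, mul_one])
    have hinv := congrFun (MonoidHom.FixedPointFree.coe_eq_inv_of_involutive hφ hinvol)
      ⟨a, mem_centralizer_singleton_iff.2 hja.symm⟩
    exact ha1 (inverted_eq_one h hw hwM ha (congrArg Subtype.val hinv))
  -- the hypotheses of the exceptional family
  haveI : Fintype G := Fintype.ofFinite G
  have hti : ∀ g : G, g ∉ MT T → ∀ k ∈ AT T, g * k * g⁻¹ ∈ AT T → k = 1 := by
    intro g hg k hk hgk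
    by_contra hk1
    apply hg
    rcases Nat.even_or_odd (orderOf k) with he | ho
    · obtain ⟨i, hi⟩ := exists_invol_pow he
      refine mem_M_of_conj h hi (pow_mem hk i) ?_
      rw [← conj_pow]
      exact pow_mem hgk i
    · have hne : g * k * g⁻¹ ≠ 1 := fun e => hk1 (conj_eq_one_iff.1 e)
      have hc : g * t * g⁻¹ ∈ centralizer ({g * k * g⁻¹} : Set G) := mem_centralizer_singleton_iff.2 (by
        calc g * t * g⁻¹ * (g * k * g⁻¹) = g * (t * k) * g⁻¹ := by group
          _ = g * (k * t) * g⁻¹ := by rw [A_comm h htA hk]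
          _ = _ := by group)
      exact mem_M_of_conj h ht htA (hCM _ hgk hne hc)
  obtain ⟨j, hj, -, hjA⟩ := exists_inverted_ne h hw hwM
  have hK : CfsgLib.CA.Hyp (AT T) :=
    ⟨hti, lt_of_le_of_ne le_normalizer fun e => hjA (by rw [e]; exact hj), hCM,
      fun a ha b hb => A_comm h ha hb⟩
  refine split_of_sq h hZ (CfsgLib.CA.sq_eq_one_of_hyp hK htA ht (M_ne_top h) (fun x => ?_)
    fun x hx hxN => invol_mem_A h hx hxN)
  refine ⟨fun hc => ?_, fun hx => isConj_iff.2 (exists_conj h ht hx)⟩
  obtain ⟨g, rfl⟩ := isConj_iff.1 hc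
  exact (orderOf_conj g t).trans ht

end CfsgLib.AbInv
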