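import Cfsg.Agent.CA.AbelianInv.TypeOne
import Cfsg.Agent.CA.AbelianInv.TypeTwo
import Cfsg.Agent.CA.AbelianInv.Lift

/-!
# Groups with abelian involution centralisers are split over their centre
-/

set_option autoImplicit false
set_option linter.style.haveILetI false

namespace CfsgLib.AbInv

open Subgroup

universe u

theorem split_aux : ∀ (n : ℕ) (G : Type u) [Group G] [Finite G], Nat.card G = n →
    ∀ T : Sylow 2 G, Hy T → Split G := by
  intro n
  induction n using Nat.strong_induction_on with
  | h n ih =>
    intro G _ _ hn T h
    by_cases hZ : center G = ⊥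
    · have IH : ∀ X : Subgroup G, X ≠ ⊤ → AT T ≤ X → ¬ X ≤ MT T → Split X := fun X hX hA hXM =>
        ih (Nat.card X) (hn ▸ lt_of_le_of_ne X.card_le_card_group fun e => hX (eq_top_of_card_eq X e)) X rfl _
          (AbInv.subgroup h hA hXM)
      by_cases hII : ∀ a ∈ AT T, a ≠ 1 → Odd (orderOf a) → centralizer ({a} : Set G) ≤ MT T
      · exact typeTwo h hZ hII
      · push Not at hII
        obtain ⟨a, ha, ha1, hodd, hnot⟩ := hII
        exact (false_of_typeOne h hZ IH ha ha1 hodd hnot).elim
    · refine split_of_quotient h fun S hS => ih (Nat.card (G ⧸ center G)) ?_ _ rfl S hS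
      rw [← hn, card_eq_card_quotient_mul_card_subgroup (center G)]
      exact lt_mul_of_one_lt_right Nat.card_pos
        ((one_lt_card_iff_ne_bot (center G)).2 hZ)

/-- A group with abelian involution centralisers and a Sylow `2`-subgroup neither cyclic nor normal splits. -/
theorem split {G : Type u} [Group G] [Finite G] {T : Sylow 2 G} (h : Hy T) : Split G :=
  split_aux (Nat.card G) G rfl T h

end CfsgLib.AbInv
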