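import Cfsg.Agent.CA.AbelianInv.Basic
import Cfsg.Agent.Invol.ElemCentralizer

/-!
# The torus of a central product of an elementary group and an odd centre
-/

set_option autoImplicit false
set_option linter.style.haveILetI false
set_option linter.unusedSectionVars false

namespace CfsgLib.AbInv

open Subgroup CfsgLib.Invol

universe u

variable {G : Type u} [Group G] [Finite G] {T : Sylow 2 G} (h : Hy T)
include h

theorem odd_center {z : G} (hz : z ∈ center G) : Odd (orderOf z) := by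
  rw [← Nat.not_even_iff_odd]
  rintro ⟨k, hk⟩
  refine center_no_invol h (t := z ^ k) (orderOf_eq_two ?_ fun e => ?_) (pow_mem hz k)
  · rw [← pow_add, ← hk, pow_orderOf_eq_one]
  · have hpos : 0 < orderOf z := orderOf_pos z
    have := Nat.le_of_dvd (by omega : 0 < k) (orderOf_dvd_of_pow_eq_one e)
    omega

theorem center_two_power {z : G} (hz : z ∈ center G) {k : ℕ} (hk : z ^ 2 ^ k = 1) : z = 1 := by
  obtain ⟨i, -, hi⟩ := (Nat.dvd_prime_pow Nat.prime_two).1 (orderOf_dvd_of_pow_eq_one hk)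
  cases i with
  | zero => exact orderOf_eq_one_iff.1 hi
  | succ i =>
    exact absurd (hi ▸ odd_center h hz) (Nat.not_odd_iff_even.2 ⟨2 ^ i, by rw [pow_succ]; ring⟩)

theorem conj_mem_T {x t : G} (hx : x ∈ MT T) (ht : t ∈ (T : Subgroup G)) : x * t * x⁻¹ ∈ (T : Subgroup G) := by
  obtain ⟨k, hk⟩ := T.isPGroup' ⟨t, ht⟩
  have h1 : t ^ 2 ^ k = 1 := congrArg Subtype.val hk
  exact mem_T h (conj_mem_A h hx (T_le h ht)) (k := k) (by rw [conj_pow, h1, mul_one, mul_inv_cancel])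

theorem AT_le_M : AT T ≤ MT T := le_normalizer

/-- In a central product: the torus through an outside involution. -/
theorem exists_torus (hs : Split G) {u : G} (hu : orderOf u = 2) (huM : u ∉ MT T) :
    (∀ t ∈ (T : Subgroup G), t ^ 2 = 1) ∧
    (∀ a ∈ AT T, ∃ t ∈ (T : Subgroup G), t⁻¹ * a ∈ center G) ∧
    ∃ Y : Subgroup G, center G ≤ Y ∧ Y ≤ MT T ∧ (∀ a ∈ Y, ∀ b ∈ Y, a * b = b * a) ∧ (Y ⊓ AT T ≤ center G) ∧
      (∀ x ∈ MT T, ∃ y ∈ Y, ∃ t ∈ (T : Subgroup G), x = y * t) ∧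
      (∀ y ∈ Y, y ∉ center G → centralizer ({y} : Set G) ≤ Y) ∧
      (∀ y ∈ Y, u * y * u ∈ Y) ∧
      (∀ x ∈ normalizer (Y : Set G), x ∈ Y ∨ u * x ∈ Y) := by
  classical
  obtain ⟨L, hinf, hsup, hel⟩ := hs
  have hdec : ∀ x : G, ∃ l ∈ L, ∃ z ∈ center G, x = l * z := fun x => by
    obtain ⟨l, hl, z, hz, e⟩ := mem_sup_of_normal_right.1 (hsup.ge (Subgroup.mem_top x))
    exact ⟨l, hl, z, hz, e.symm⟩
  have hLZ : ∀ {x : G}, x ∈ L → x ∈ center G → x = 1 := fun {x} hl hz => by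
    have : x ∈ L ⊓ center G := ⟨hl, hz⟩
    rwa [hinf, mem_bot] at this
  have hLmem : ∀ {x : G} {k : ℕ}, x ^ 2 ^ k = 1 → x ∈ L := by
    intro x k hk
    obtain ⟨l, hl, z, hz, rfl⟩ := hdec x
    rw [((show Commute l z from mem_center_iff.1 hz l)).mul_pow] at hk
    have : z ^ 2 ^ k = 1 := hLZ (by rw [eq_inv_of_mul_eq_one_right hk]; exact inv_mem (pow_mem hl _)) (pow_mem hz _)
    rw [center_two_power h hz this, mul_one]
    exact hl
  have hTL : (T : Subgroup G) ≤ L := fun t ht => by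
    obtain ⟨k, hk⟩ := T.isPGroup' ⟨t, ht⟩
    exact hLmem (congrArg Subtype.val hk)
  have huL : u ∈ L := hLmem (k := 1) (by rw [pow_one, ← hu, pow_orderOf_eq_one])
  obtain ⟨t₀, ht₀T, ht₀, ht₀c⟩ := exists_center_invol h
  have hTsq : ∀ t ∈ (T : Subgroup G), t ^ 2 = 1 := fun t ht =>
    hel t₀ (hTL ht₀T) ht₀ t (hTL ht) (mem_centralizer_singleton_iff.1 (ht₀c ht))
  have hA : ∀ a ∈ AT T, ∃ t ∈ (T : Subgroup G), t⁻¹ * a ∈ center G := by
    intro a ha
    obtain ⟨l, hl, z, hz, rfl⟩ := hdec a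
    have hlA : l ∈ AT T := by
      have := mul_mem ha (inv_mem (center_le_AT h hz))
      rwa [mul_inv_cancel_right] at this
    have h2 : l ^ 2 = 1 := hel t₀ (hTL ht₀T) ht₀ l hl (AT_comm_T hlA ht₀T).symm
    exact ⟨l, mem_T h hlA (k := 1) (by rwa [pow_one]), by rwa [inv_mul_cancel_left]⟩
  refine ⟨hTsq, hA, ?_⟩
  -- the elementary group
  set S : Sylow 2 L := T.subtype hTL
  have hS : ∀ x : L, x ∈ (S : Subgroup L) ↔ (x : G) ∈ (T : Subgroup G) := fun x => Iff.rfl
  have hH : ElemCentralizer.Hyp S := by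
    refine ⟨fun hc => h.notCyclic ?_, fun hn => h.notNormal ⟨fun x hx g => ?_⟩, fun t ht => ?_⟩
    · haveI : IsCyclic ((T : Subgroup G).subgroupOf L) := hc
      exact (subgroupOfEquivOfLe hTL).isCyclic.1 inferInstance
    · obtain ⟨l, hl, z, hz, rfl⟩ := hdec g
      have := hn.conj_mem ⟨x, hTL hx⟩ hx ⟨l, hl⟩
      rw [show l * z * x * (l * z)⁻¹ = l * (z * x * z⁻¹) * l⁻¹ by group,
        ← mem_center_iff.1 hz x, mul_inv_cancel_right]
      exact this
    · have ht' : orderOf (t : G) = 2 := by rw [orderOf_coe]; exact ht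
      have hc : ∀ c ∈ centralizer ({t} : Set L), (c : G) ∈ centralizer ({(t : G)} : Set G) := fun c hc =>
        mem_centralizer_singleton_iff.2 (congrArg Subtype.val (mem_centralizer_singleton_iff.1 hc))
      exact ⟨⟨⟨fun a b => Subtype.ext (Subtype.ext (h.ai _ ht' _ (hc _ a.2) _ (hc _ b.2)))⟩⟩, fun c hc' =>
        Subtype.ext (hel _ t.2 ht' c c.2 (congrArg Subtype.val (mem_centralizer_singleton_iff.1 hc')))⟩
  have hpt : ∀ x : L, x ∈ ElemCentralizer.pt S ↔ (x : G) ∈ MT T := by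
    intro x
    constructor
    · intro hx
      exact mem_M_of_conj h ht₀ (T_le h ht₀T)
        (T_le h ((mem_normalizer_iff.1 hx ⟨t₀, hTL ht₀T⟩).1 ht₀T))
    · intro hx
      exact Subgroup.mem_normalizer_fintype fun y hy => conj_mem_T h hx hy
  let u' : L := ⟨u, huL⟩
  have hu' : orderOf u' = 2 := by rw [← orderOf_coe]; exact hu
  have hu'M : u' ∉ ElemCentralizer.pt S := fun e => huM ((hpt u').1 e)
  set D := ElemCentralizer.two S u'
  set Y : Subgroup G := D.map L.subtype ⊔ center G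
  have hY : ∀ {y : G}, y ∈ Y ↔ ∃ d : L, d ∈ D ∧ ∃ z ∈ center G, y = (d : G) * z := fun {y} => by
    rw [mem_sup_of_normal_right]
    constructor
    · rintro ⟨_, ⟨d, hd, rfl⟩, z, hz, rfl⟩
      exact ⟨d, hd, z, hz, rfl⟩
    · rintro ⟨d, hd, z, hz, rfl⟩
      exact ⟨_, ⟨d, hd, rfl⟩, z, hz, rfl⟩
  have hDY : ∀ {l : L}, (l : G) ∈ Y → l ∈ D := by
    intro l hl
    obtain ⟨d, hd, z, hz, e⟩ := hY.1 hl
    have hz1 : z = 1 := hLZ (by
      have := mul_mem (inv_mem d.2) l.2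
      rwa [e, inv_mul_cancel_left] at this) hz
    rw [hz1, mul_one] at e
    rwa [Subtype.ext e]
  refine ⟨Y, le_sup_right, ?_, ?_, ?_, ?_, ?_, ?_, ?_⟩
  · intro y hy
    obtain ⟨d, hd, z, hz, rfl⟩ := hY.1 hy
    exact mul_mem ((hpt d).1 hd.1) (AT_le_M h (center_le_AT h hz))
  · intro a ha b hb
    obtain ⟨d, hd, z, hz, rfl⟩ := hY.1 ha
    obtain ⟨d', hd', z', hz', rfl⟩ := hY.1 hb
    have e : (d : G) * d' = d' * d := congrArg Subtype.val (ElemCentralizer.two_comm hH hu' hu'M hd hd')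
    calc (d : G) * z * (d' * z') = d * (z * d') * z' := by group
      _ = d * (d' * z) * z' := by rw [mem_center_iff.1 hz d']
      _ = (d * d') * (z * z') := by group
      _ = (d' * d) * (z' * z) := by rw [e, mem_center_iff.1 hz' z]
      _ = d' * (d * z') * z := by group
      _ = d' * (z' * d) * z := by rw [mem_center_iff.1 hz' d]
      _ = _ := by group
  · rintro y ⟨hy, hyA : y ∈ AT T⟩
    obtain ⟨d, hd, z, hz, rfl⟩ := hY.1 hy
    have hdA : (d : G) ∈ AT T := by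
      have := mul_mem hyA (inv_mem (center_le_AT h hz))
      rwa [mul_inv_cancel_right] at this
    have : d = 1 := ElemCentralizer.eq_one_of_commute hH hu'M hd (t := ⟨t₀, hTL ht₀T⟩)
      (by rw [← orderOf_coe]; exact ht₀) (Subtype.ext (AT_comm_T hdA ht₀T).symm)
    rw [this, OneMemClass.coe_one, one_mul]
    exact hz
  · intro x hx
    obtain ⟨l, hl, z, hz, rfl⟩ := hdec x
    have hlM : (⟨l, hl⟩ : L) ∈ ElemCentralizer.pt S := (hpt _).2 (by
      have := (MT T).mul_mem hx ((MT T).inv_mem (AT_le_M h (center_le_AT h hz)))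
      rwa [mul_inv_cancel_right] at this)
    obtain ⟨d, hd, a, ha, e⟩ := ElemCentralizer.decomp hH hu' hu'M hlM
    refine ⟨d * z, hY.2 ⟨d, hd, z, hz, rfl⟩, a, ha, ?_⟩
    have e' : l = (d : G) * a := congrArg Subtype.val e
    rw [e', mul_assoc, mul_assoc, mem_center_iff.1 hz (a : G)]
  · intro y hy hyZ x hx
    obtain ⟨d, hd, z, hz, rfl⟩ := hY.1 hy
    have hd1 : d ≠ 1 := fun e => hyZ (by rw [e, OneMemClass.coe_one, one_mul]; exact hz)
    obtain ⟨l, hl, z', hz', rfl⟩ := hdec x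
    refine hY.2 ⟨⟨l, hl⟩, ?_, z', hz', rfl⟩
    have e := mem_centralizer_singleton_iff.1 hx
    have hc : Commute (⟨l, hl⟩ : L) d := Subtype.ext (by
      show l * d = d * l
      calc l * d = l * z' * ((d : G) * z) * (z⁻¹ * z'⁻¹) := by
            rw [show l * z' * ((d : G) * z) * (z⁻¹ * z'⁻¹) = l * (z' * d) * z'⁻¹ by group,
              ← mem_center_iff.1 hz' d, ← mul_assoc, mul_inv_cancel_right]
        _ = (d : G) * z * (l * z') * (z⁻¹ * z'⁻¹) := by rw [e]
        _ = d * (z * (l * z')) * (z⁻¹ * z'⁻¹) := by group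
        _ = d * ((l * z') * z) * (z⁻¹ * z'⁻¹) := by rw [mem_center_iff.1 hz (l * z')]
        _ = _ := by group)
    obtain ⟨hfo, hfu⟩ := (ElemCentralizer.mem_two_iff_fixes hu').1 hd
    have hlfix : ∀ p : L ⧸ ElemCentralizer.pt S, d • p = p → d • (⟨l, hl⟩ : L) • p = (⟨l, hl⟩ : L) • p := fun p hp => by
      rw [← mul_smul, ← hc.eq, mul_smul, hp]
    have hne : ElemCentralizer.base S ≠ (u' : L ⧸ ElemCentralizer.pt S) := fun e1 =>
      hu'M (ElemCentralizer.eq_base_iff.1 e1.symm)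
    rcases ElemCentralizer.fixes_two hH hu' hu'M hd hd1 (hlfix _ hfo) with e1 | e1 <;>
      rcases ElemCentralizer.fixes_two hH hu' hu'M hd hd1 (hlfix _ hfu) with e2 | e2
    · exact absurd (MulAction.injective _ (e1.trans e2.symm)) hne
    · exact (ElemCentralizer.mem_two_iff_fixes hu').2 ⟨e1, e2⟩
    · exfalso
      have hu2 := mul_self_of_orderOf hu'
      have h6 : u' * ⟨l, hl⟩ ∈ D := (ElemCentralizer.mem_two_iff_fixes hu').2
        ⟨by rw [mul_smul, e1, MulAction.Quotient.smul_coe, smul_eq_mul, hu2],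
          by rw [mul_smul, e2, MulAction.Quotient.smul_coe, smul_eq_mul, mul_one]⟩
      have h7 := ElemCentralizer.inverts hH hu' hu'M hd
      have h8 : (⟨l, hl⟩ : L) * d * (⟨l, hl⟩ : L)⁻¹ = d⁻¹ := by
        have h9 := ElemCentralizer.two_comm hH hu' hu'M h6 hd
        have hui := inv_eq_of_orderOf hu'
        calc (⟨l, hl⟩ : L) * d * (⟨l, hl⟩ : L)⁻¹ = u'⁻¹ * ((u' * ⟨l, hl⟩) * d * (u' * ⟨l, hl⟩)⁻¹) * u' := by group
          _ = u'⁻¹ * d * u' := by rw [h9, mul_inv_cancel_right]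
          _ = u' * d * u'⁻¹ := by rw [hui]
          _ = d⁻¹ := h7
      rw [hc.eq, mul_inv_cancel_right] at h8
      exact hd1 (ElemCentralizer.eq_one_of_sq hH hu'M hd (by rw [sq]; exact mul_eq_one_iff_eq_inv.2 h8))
    · exact absurd (MulAction.injective _ (e1.trans e2.symm)) hne
  · intro y hy
    obtain ⟨d, hd, z, hz, rfl⟩ := hY.1 hy
    refine hY.2 ⟨u' * d * u'⁻¹, by rw [ElemCentralizer.inverts hH hu' hu'M hd]; exact inv_mem hd, z, hz, ?_⟩
    show u * ((d : G) * z) * u = u * d * u⁻¹ * z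
    rw [inv_eq_of_orderOf hu, mul_assoc, mul_assoc (d : G) z u, ← mem_center_iff.1 hz u]
    group
  · intro x hx
    obtain ⟨l, hl, z, hz, rfl⟩ := hdec x
    have hln : (⟨l, hl⟩ : L) ∈ normalizer (D : Set L) := Subgroup.mem_normalizer_fintype fun d hd => by
      refine hDY (l := ⟨l, hl⟩ * d * ⟨l, hl⟩⁻¹) ?_
      have h1 := (mem_normalizer_iff.1 hx (d : G)).1 (hY.2 ⟨d, hd, 1, one_mem _, (mul_one _).symm⟩)
      rwa [show l * z * (d : G) * (l * z)⁻¹ = l * (z * d * z⁻¹) * l⁻¹ by group,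
        ← mem_center_iff.1 hz (d : G), mul_inv_cancel_right] at h1
    rw [ElemCentralizer.normalizer_two hH hu' hu'M] at hln
    have hDn : zpowers u' ≤ normalizer (D : Set L) := by
      rw [ElemCentralizer.normalizer_two hH hu' hu'M]; exact le_sup_right
    rw [← SetLike.mem_coe, coe_mul_of_right_le_normalizer_left _ _ hDn] at hln
    obtain ⟨d, hd, v, ⟨k, hk⟩, e⟩ := hln
    have hu2 := mul_self_of_orderOf hu'
    rcases Int.even_or_odd k with ⟨m, rfl⟩ | ⟨m, rfl⟩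
    · left
      have hv : v = 1 := by
        rw [← hk]; show u' ^ (m + m) = 1
        rw [← two_mul, zpow_mul, zpow_two, hu2, one_zpow]
      refine hY.2 ⟨⟨l, hl⟩, ?_, z, hz, rfl⟩
      rw [← e, hv]; show d * 1 ∈ D; rw [mul_one]; exact hd
    · right
      have hv : v = u' := by
        rw [← hk]; show u' ^ (2 * m + 1) = u'
        rw [zpow_add, zpow_mul, zpow_two, hu2, one_zpow, one_mul, zpow_one]
      refine hY.2 ⟨u' * ⟨l, hl⟩, ?_, z, hz, (mul_assoc _ _ _).symm⟩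
      rw [← e, hv]
      show u' * (d * u') ∈ D
      rw [← mul_assoc, ← inv_eq_of_orderOf hu']
      rw [show u'⁻¹ * d * u'⁻¹ = u' * d * u'⁻¹ by rw [inv_eq_of_orderOf hu'],
        ElemCentralizer.inverts hH hu' hu'M hd]
      exact inv_mem hd

end CfsgLib.AbInv
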