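import Cfsg.Agent.CA.AbelianInv.Split

/-!
# An odd element of `AT T` with centraliser outside `MT T`
-/

set_option autoImplicit false
set_option linter.style.haveILetI false
set_option linter.unusedSectionVars false

namespace CfsgLib.AbInv

open Subgroup CfsgLib.Invol

universe u

variable {G : Type u} [Group G] [Finite G] {T : Sylow 2 G} (h : Hy T)
include h

theorem mem_AT_sub {X : Subgroup G} (hA : AT T ≤ X) (x : X) :
    x ∈ AT (T.subtype ((T_le h).trans hA)) ↔ (x : G) ∈ AT T := by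
  constructor
  · intro hx
    exact mem_centralizer_iff.2 fun s hs =>
      congrArg Subtype.val (mem_centralizer_iff.1 hx ⟨s, hA (T_le h hs)⟩ hs)
  · intro hx
    exact mem_centralizer_iff.2 fun s hs => Subtype.ext (mem_centralizer_iff.1 hx s hs)

theorem mem_MT_sub {X : Subgroup G} (hA : AT T ≤ X) (hX : ¬ X ≤ MT T) (x : X) :
    x ∈ MT (T.subtype ((T_le h).trans hA)) ↔ (x : G) ∈ MT T := by
  obtain ⟨t, ht, htA⟩ := exists_invol h
  have ht' : orderOf (⟨t, hA htA⟩ : X) = 2 := by rw [← orderOf_coe]; exact ht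
  constructor
  · intro hx
    exact mem_M_of_conj h ht htA ((mem_AT_sub h hA _).1
      (conj_mem_A (AbInv.subgroup h hA hX) hx ((mem_AT_sub h hA ⟨t, hA htA⟩).2 htA)))
  · intro hx
    exact mem_M_of_conj (AbInv.subgroup h hA hX) ht' ((mem_AT_sub h hA _).2 htA)
      ((mem_AT_sub h hA _).2 (conj_mem_A h hx htA))

/-- In a split subgroup the centre consists of the odd elements of `AT T`. -/
theorem mem_center_sub {X : Subgroup G} (hA : AT T ≤ X) (hX : ¬ X ≤ MT T) (hs : Split X) (x : X) :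
    x ∈ center X ↔ (x : G) ∈ AT T ∧ Odd (orderOf (x : G)) := by
  constructor
  · intro hx
    exact ⟨(mem_AT_sub h hA x).1 (center_le_AT (AbInv.subgroup h hA hX) hx),
      by rw [orderOf_coe]; exact odd_center (AbInv.subgroup h hA hX) hx⟩
  · rintro ⟨hx, ho⟩
    obtain ⟨u, hu, huM⟩ := exists_outside (AbInv.subgroup h hA hX)
    obtain ⟨hsq, hdec, -⟩ := exists_torus (AbInv.subgroup h hA hX) hs hu huM
    obtain ⟨t, htT, htx⟩ := hdec x ((mem_AT_sub h hA x).2 hx)
    obtain ⟨z, hz⟩ : ∃ z, z = t⁻¹ * x := ⟨_, rfl⟩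
    rw [← hz] at htx
    have hxz : x = t * z := by rw [hz, mul_inv_cancel_left]
    rw [orderOf_coe] at ho
    have hc : Commute t z := mem_center_iff.1 htx t
    have h1 : t ^ (orderOf x * orderOf z) = 1 := by
      have h2 : (t * z) ^ (orderOf x * orderOf z) = 1 := by rw [← hxz, pow_mul, pow_orderOf_eq_one, one_pow]
      rwa [hc.mul_pow, mul_comm (orderOf x) (orderOf z), pow_mul z, pow_orderOf_eq_one, one_pow, mul_one,
        mul_comm] at h2
    have hodd : Odd (orderOf x * orderOf z) := ho.mul (odd_center (AbInv.subgroup h hA hX) htx)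
    have ht1 : t = 1 := by
      rw [← orderOf_eq_one_iff]
      exact Nat.eq_one_of_dvd_coprimes (Nat.coprime_two_left.2 hodd) (orderOf_dvd_of_pow_eq_one (hsq t htT))
        (orderOf_dvd_of_pow_eq_one h1)
    rw [hxz, ht1, one_mul]
    exact htx

/-- The odd elements of `AT T` centralise every split subgroup containing it and not inside `MT T`. -/
theorem commute_of_split {X : Subgroup G} (hA : AT T ≤ X) (hX : ¬ X ≤ MT T) (hs : Split X) {o : G}
    (ho : o ∈ AT T) (ho' : Odd (orderOf o)) : X ≤ centralizer ({o} : Set G) := by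
  intro x hx
  have := mem_center_iff.1 ((mem_center_sub h hA hX hs ⟨o, hA ho⟩).2 ⟨ho, ho'⟩) ⟨x, hx⟩
  exact mem_centralizer_singleton_iff.2 (congrArg Subtype.val this)

set_option maxHeartbeats 800000 in
theorem false_of_typeOne (hZ : center G = ⊥)
    (IH : ∀ X : Subgroup G, X ≠ ⊤ → AT T ≤ X → ¬ X ≤ MT T → Split X)
    {a : G} (ha : a ∈ AT T) (ha1 : a ≠ 1) (hodd : Odd (orderOf a)) (hnot : ¬ centralizer ({a} : Set G) ≤ MT T) :
    False := by
  classical
  have hne_top : ∀ {b : G}, b ≠ 1 → centralizer ({b} : Set G) ≠ ⊤ := fun {b} hb e => hb (by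
    have : b ∈ center G := mem_center_iff.2 fun g => mem_centralizer_singleton_iff.1 (e.ge (Subgroup.mem_top g))
    rwa [hZ, mem_bot] at this)
  have hA_le : ∀ {b : G}, b ∈ AT T → AT T ≤ centralizer ({b} : Set G) := fun {b} hb c hc =>
    mem_centralizer_singleton_iff.2 (A_comm h hc hb)
  set X := centralizer ({a} : Set G) with hXdef
  have hAX : AT T ≤ X := hA_le ha
  have hsX : Split X := IH X (hne_top ha1) hAX hnot
  have hO : ∀ {o : G}, o ∈ AT T → Odd (orderOf o) → X ≤ centralizer ({o} : Set G) :=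
    fun ho ho' => commute_of_split h hAX hnot hsX ho ho'
  -- the centraliser of every non-identity odd element is `X`
  have hCo : ∀ {o : G}, o ∈ AT T → Odd (orderOf o) → o ≠ 1 → centralizer ({o} : Set G) = X := by
    intro o ho ho' ho1
    refine le_antisymm ?_ (hO ho ho')
    have hn : ¬ centralizer ({o} : Set G) ≤ MT T := fun hle => hnot ((hO ho ho').trans hle)
    exact commute_of_split h (hA_le ho) hn (IH _ (hne_top ho1) (hA_le ho) hn) ha hodd
  -- the odd part is normalised by `MT T` and by `X`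
  set O : Subgroup G := (center X).map X.subtype with hOdef
  have hOmem : ∀ {o : G}, o ∈ O ↔ o ∈ AT T ∧ Odd (orderOf o) := by
    intro o
    constructor
    · rintro ⟨x, hx, rfl⟩
      exact (mem_center_sub h hAX hnot hsX x).1 hx
    · rintro ⟨ho, ho'⟩
      exact ⟨⟨o, hAX ho⟩, (mem_center_sub h hAX hnot hsX ⟨o, hAX ho⟩).2 ⟨ho, ho'⟩, rfl⟩
  have hOcomm : ∀ {o x : G}, o ∈ O → x ∈ X → x * o = o * x := fun {o x} ho hx =>
    mem_centralizer_singleton_iff.1 (hO (hOmem.1 ho).1 (hOmem.1 ho).2 hx)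
  set X1 := normalizer (O : Set G) with hX1
  have hMX1 : MT T ≤ X1 := fun x hx => Subgroup.mem_normalizer_fintype fun o ho => by
    refine hOmem.2 ⟨conj_mem_A h hx (hOmem.1 ho).1, ?_⟩
    rw [orderOf_conj]; exact (hOmem.1 ho).2
  have hXX1 : X ≤ X1 := fun x hx => Subgroup.mem_normalizer_fintype fun o ho => by
    rwa [hOcomm ho hx, mul_inv_cancel_right]
  have hX1top : X1 ≠ ⊤ := by
    intro e
    haveI : O.Normal := normalizer_eq_top_iff.1 e
    have := normal_le_center h (R := O) fun o ho => le_normalizer (hOmem.1 ho).1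
    rw [hZ, le_bot_iff] at this
    exact ha1 (by rw [← mem_bot, ← this]; exact hOmem.2 ⟨ha, hodd⟩)
  have hX1M : ¬ X1 ≤ MT T := fun hle => hnot (hXX1.trans hle)
  have hMX : MT T ≤ X := hMX1.trans
    (commute_of_split h (le_normalizer.trans hMX1) hX1M (IH _ hX1top (le_normalizer.trans hMX1) hX1M) ha hodd)
  -- the torus
  obtain ⟨u', hu', hu'M⟩ := exists_outside (AbInv.subgroup h hAX hnot)
  obtain ⟨-, -, Y', hY'Z, hY'M, hY'c, hY'A, hY'dec, hY'C, hY'u, -⟩ :=
    exists_torus (AbInv.subgroup h hAX hnot) hsX hu' hu'M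
  set Y : Subgroup G := Y'.map X.subtype with hYdef
  set u : G := (u' : G) with hudef
  have hu : orderOf u = 2 := by rw [hudef, orderOf_coe]; exact hu'
  have huM : u ∉ MT T := fun e => hu'M ((mem_MT_sub h hAX hnot u').2 e)
  have hYmem : ∀ {y : G}, y ∈ Y ↔ ∃ hy : y ∈ X, (⟨y, hy⟩ : X) ∈ Y' := by
    intro y
    constructor
    · rintro ⟨x, hx, rfl⟩; exact ⟨x.2, hx⟩
    · rintro ⟨hy, hy'⟩; exact ⟨⟨y, hy⟩, hy', rfl⟩
  have hYX : Y ≤ X := fun y hy => (hYmem.1 hy).1
  have hYM : Y ≤ MT T := fun y hy => by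
    obtain ⟨hy', hyY⟩ := hYmem.1 hy
    exact (mem_MT_sub h hAX hnot ⟨y, hy'⟩).1 (hY'M hyY)
  have hYc : ∀ {x y : G}, x ∈ Y → y ∈ Y → x * y = y * x := fun {x y} hx hy => by
    obtain ⟨hx', hxY⟩ := hYmem.1 hx
    obtain ⟨hy', hyY⟩ := hYmem.1 hy
    exact congrArg Subtype.val (hY'c _ hxY _ hyY)
  have hOY : O ≤ Y := map_mono hY'Z
  have hYA : ∀ {y : G}, y ∈ Y → y ∈ AT T → y ∈ O := fun {y} hy hyA => by
    obtain ⟨hy', hyY⟩ := hYmem.1 hy
    exact ⟨⟨y, hy'⟩, hY'A ⟨hyY, (mem_AT_sub h hAX _).2 hyA⟩, rfl⟩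
  have hdec : ∀ {x : G}, x ∈ MT T → ∃ y ∈ Y, ∃ t ∈ (T : Subgroup G), x = y * t := fun {x} hx => by
    obtain ⟨y, hy, t, ht, e⟩ := hY'dec ⟨x, hMX hx⟩ ((mem_MT_sub h hAX hnot _).2 hx)
    exact ⟨y, ⟨y, hy, rfl⟩, t, ht, congrArg Subtype.val e⟩
  have hCX : ∀ {y x : G}, y ∈ Y → y ∉ O → x ∈ X → x * y = y * x → x ∈ Y := fun {y x} hy hyO hx hc => by
    obtain ⟨hy', hyY⟩ := hYmem.1 hy
    exact ⟨⟨x, hx⟩, hY'C _ hyY (fun e => hyO ⟨_, e, rfl⟩) (mem_centralizer_singleton_iff.2 (Subtype.ext hc)), rfl⟩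
  have hYodd : ∀ {y : G}, y ∈ Y → Odd (orderOf y) := by
    intro y hy
    rw [← Nat.not_even_iff_odd]
    rintro ⟨m, hm⟩
    have hpos := orderOf_pos y
    have h2 : orderOf (y ^ m) = 2 := orderOf_eq_two (by rw [← pow_add, ← hm, pow_orderOf_eq_one]) fun e => by
      have := Nat.le_of_dvd (by omega : 0 < m) (orderOf_dvd_of_pow_eq_one e)
      omega
    have := (hOmem.1 (hYA (pow_mem hy m) (invol_mem_A h h2 (hYM (pow_mem hy m))))).2
    rw [h2] at this
    exact absurd this (by decide)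
  have hTY : ∀ {t : G}, t ∈ (T : Subgroup G) → t ∈ Y → t = 1 := fun {t} ht hty => by
    obtain ⟨k, hk⟩ := T.isPGroup' ⟨t, ht⟩
    have h1 : t ^ 2 ^ k = 1 := congrArg Subtype.val hk
    rw [← orderOf_eq_one_iff]
    exact Nat.eq_one_of_dvd_coprimes ((Nat.coprime_two_left.2 (hYodd hty)).pow_left k)
      (orderOf_dvd_of_pow_eq_one h1) dvd_rfl
  -- commutators of `MT T` lie in `T`
  have hcommT : ∀ {x x' : G}, x ∈ MT T → x' ∈ MT T → x * x' * x⁻¹ * x'⁻¹ ∈ (T : Subgroup G) := by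
    intro x x' hx hx'
    obtain ⟨y, hy, t, ht, rfl⟩ := hdec hx
    obtain ⟨y', hy', t', ht', rfl⟩ := hdec hx'
    have hn : ∀ {z s : G}, z ∈ Y → s ∈ (T : Subgroup G) → z⁻¹ * s * z ∈ (T : Subgroup G) := fun {z s} hz hs => by
      have := conj_mem_T h (inv_mem (hYM hz)) hs
      rwa [inv_inv] at this
    have e1 : y * t * (y' * t') = (y * y') * ((y'⁻¹ * t * y') * t') := by group
    have e2 : y' * t' * (y * t) = (y * y') * ((y⁻¹ * t' * y) * t) := by rw [hYc hy hy']; group
    rw [show y * t * (y' * t') * (y * t)⁻¹ * (y' * t')⁻¹ = y * t * (y' * t') * (y' * t' * (y * t))⁻¹ by group,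
      e1, e2, show ∀ p q r : G, p * q * (p * r)⁻¹ = p * (q * r⁻¹) * p⁻¹ from fun p q r => by group]
    exact conj_mem_T h (mul_mem (hYM hy) (hYM hy'))
      (mul_mem (mul_mem (hn hy' ht) ht') (inv_mem (mul_mem (hn hy ht') ht)))
  obtain ⟨w₀, hw₀, hw₀M⟩ := exists_outside h
  obtain ⟨j₀, hj₀, -, hj₀A⟩ := exists_inverted_ne h hw₀ hw₀M
  obtain ⟨yy, hyy, tt, htt, e₀⟩ := hdec hj₀
  have hyyO : yy ∉ O := fun e => hj₀A (e₀ ▸ mul_mem (hOmem.1 e).1 (T_le h htt))
  -- the intersection with a conjugate of `MT T`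
  have hD2Y : ∀ {w y : G}, orderOf w = 2 → w ∉ MT T → y ∈ Y → y ∉ O → w * y * w ∈ MT T →
      ∀ x ∈ MT T, w * x * w ∈ MT T → x ∈ Y := by
    intro w y hw hwM hy hyO hwy x hx hwx
    refine hCX hy hyO (hMX hx) ?_
    have hc := hcommT hx (hYM hy)
    have hw2 := mul_self_of_orderOf hw
    have hcw : w * (x * y * x⁻¹ * y⁻¹) * w ∈ MT T := by
      rw [show w * (x * y * x⁻¹ * y⁻¹) * w =
        (w * x * w⁻¹) * (w * y * w⁻¹) * (w * x * w⁻¹)⁻¹ * (w * y * w⁻¹)⁻¹ * (w * w) by group, hw2, mul_one,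
        inv_eq_of_orderOf hw]
      exact mul_mem (mul_mem (mul_mem hwx hwy) (inv_mem hwx)) (inv_mem hwy)
    have h1 : x * y * x⁻¹ * y⁻¹ = 1 := eq_one_of_sq h hw hwM (le_normalizer (T_le h hc)) hcw (by
      obtain ⟨hsq, -⟩ := exists_torus (AbInv.subgroup h hAX hnot) hsX hu' hu'M
      exact congrArg Subtype.val (hsq ⟨_, hAX (T_le h hc)⟩ hc))
    calc x * y = (x * y * x⁻¹ * y⁻¹) * (y * x) := by group
      _ = _ := by rw [h1, one_mul]
  -- the two cases for a fixed point
  have pair : ∀ {w y : G}, orderOf w = 2 → w ∉ MT T → y ∈ Y → y ∉ O → w * y * w ∈ MT T →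
      w * y * w = y⁻¹ ∨ ∀ y' ∈ Y, w * y' * w ∈ Y := by
    intro w y hw hwM hy hyO hwy
    have hsub := hD2Y hw hwM hy hyO hwy
    have hw2 := mul_self_of_orderOf hw
    have hmulw : ∀ p q : G, w * (p * q) * w = (w * p * w) * (w * q * w) := fun p q => by
      calc w * (p * q) * w = w * p * (w * w) * q * w := by rw [hw2]; group
        _ = _ := by group
    have hwinvw : ∀ p : G, w * p⁻¹ * w = (w * p * w)⁻¹ := fun p => by
      rw [mul_inv_rev, mul_inv_rev, inv_eq_of_orderOf hw, mul_assoc]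
    have hconj : ∀ p : G, w * (w * p * w) * w = p := fun p => by
      calc w * (w * p * w) * w = (w * w) * p * (w * w) := by group
        _ = p := by rw [hw2, one_mul, mul_one]
    by_cases hcase : ∃ a₀ ∈ MT T, w * a₀ * w ∈ MT T ∧ a₀ ∈ AT T ∧ a₀ ≠ 1
    · right
      obtain ⟨a₀, ha₀M, ha₀w, ha₀A, ha₀1⟩ := hcase
      have ha₀O : a₀ ∈ O := hYA (hsub a₀ ha₀M ha₀w) ha₀A
      have hOD : ∀ o ∈ O, w * o * w ∈ MT T := by
        intro o ho
        have hc : ∀ x : G, x ∈ MT T → w * x * w ∈ MT T → w * o * w * x = x * (w * o * w) := by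
          intro x _ hxw
          calc w * o * w * x = w * o * w * (w * (w * x * w) * w) := by rw [hconj]
            _ = w * o * (w * w) * (w * x * w) * w := by group
            _ = w * (o * (w * x * w)) * w := by rw [hw2]; group
            _ = w * ((w * x * w) * o) * w := by rw [hOcomm ho (hMX hxw)]
            _ = _ := by rw [hmulw, hconj]
        have hq : w * o * w ∈ X := by
          rw [← hCo (hOmem.1 ha₀O).1 (hOmem.1 ha₀O).2 ha₀1]
          exact mem_centralizer_singleton_iff.2 (hc a₀ ha₀M ha₀w)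
        exact hYM (hCX hy hyO hq (hc y (hYM hy) hwy))
      have hYD : ∀ y' ∈ Y, w * y' * w ∈ MT T := by
        intro y' hy'
        obtain ⟨j, hj, hwj, hjy⟩ := exists_inverted h hw hwM (hYM hy')
        have hjY : j ∈ Y := hsub j hj (inverted_mem hj hwj)
        have h2 := mul_mem (inverted_mem hj hwj) (hOD _ (hYA (mul_mem (inv_mem hjY) hy') hjy))
        rwa [← hmulw, mul_inv_cancel_left] at h2
      intro y' hy'
      exact hsub _ (hYD y' hy') (by rw [hconj]; exact hYM hy')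
    · left
      obtain ⟨j, hj, hwj, hjy⟩ := exists_inverted h hw hwM (hYM hy)
      have hD : w * (j⁻¹ * y) * w ∈ MT T := by
        rw [hmulw, hwinvw, hwj, inv_inv]
        exact mul_mem hj hwy
      have : j⁻¹ * y = 1 := by
        by_contra hne
        exact hcase ⟨_, mul_mem (inv_mem hj) (hYM hy), hD, hjy, hne⟩
      rw [inv_mul_eq_one] at this
      rw [← this]; exact hwj
  -- an outside involution normalising the torus centralises the odd part
  have hnormX : ∀ {w : G}, orderOf w = 2 → w ∉ MT T → (∀ y ∈ Y, w * y * w ∈ Y) → w ∈ X := by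
    intro w hw hwM hwY
    have hw2 := mul_self_of_orderOf hw
    have hu2 := mul_self_of_orderOf hu
    set g := u * w with hg
    by_cases hgM : g ∈ MT T
    · have := mul_mem u'.2 (hMX hgM)
      rwa [hg, ← mul_assoc, hu2, one_mul] at this
    have huY : ∀ y ∈ Y, u * y * u ∈ Y := fun y hy => by
      obtain ⟨hy', hyY⟩ := hYmem.1 hy
      exact ⟨_, hY'u _ hyY, rfl⟩
    have hgY : ∀ y ∈ Y, g⁻¹ * y * g ∈ Y := fun y hy => by
      rw [hg, mul_inv_rev, inv_eq_of_orderOf hu, inv_eq_of_orderOf hw]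
      simpa [mul_assoc] using hwY _ (huY y hy)
    obtain ⟨t, ht, htA⟩ := exists_invol h
    obtain ⟨⟨v, hv, hvg⟩⟩ : Nonempty {v : G // orderOf v = 2 ∧ g⁻¹ * v ∈ MT T} := by
      refine (Nat.card_pos_iff.1 ?_).1
      rw [card_involutions_coset (stronglyEmbedded h) hgM]
      haveI : Nonempty {s : G // orderOf s = 2 ∧ s ∈ MT T} := ⟨⟨t, ht, le_normalizer htA⟩⟩
      exact Nat.card_pos
    have hvM : v ∉ MT T := fun e => hgM (by
      have := mul_mem e (inv_mem hvg)
      rwa [mul_inv_rev, inv_inv, mul_inv_cancel_left] at this)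
    have hv2 := mul_self_of_orderOf hv
    set x := g⁻¹ * v with hx
    have hvgx : v = g * x := by rw [hx, mul_inv_cancel_left]
    have hvY' : ∀ y ∈ Y, v * y * v ∈ MT T := fun y hy => by
      rw [show v * y * v = v⁻¹ * y * v by rw [inv_eq_of_orderOf hv], hvgx,
        show (g * x)⁻¹ * y * (g * x) = x⁻¹ * (g⁻¹ * y * g) * x by group]
      exact mul_mem (mul_mem (inv_mem hvg) (hYM (hgY y hy))) hvg
    have hvY : ∀ y ∈ Y, v * y * v ∈ Y := fun y hy =>
      hD2Y hv hvM hyy hyyO (hvY' yy hyy) _ (hvY' y hy) (by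
        rw [show v * (v * y * v) * v = (v * v) * y * (v * v) by group, hv2, one_mul, mul_one]; exact hYM hy)
    -- `x` normalises the torus, so lies in it
    have hxY : x ∈ Y := by
      refine hCX hyy hyyO (hMX hvg) ?_
      have h1 : x * yy * x⁻¹ ∈ Y := by
        have := hgY _ (hvY yy hyy)
        rwa [show g⁻¹ * (v * yy * v) * g = (g⁻¹ * v) * yy * (g⁻¹ * v⁻¹)⁻¹ by group,
          inv_eq_of_orderOf hv, ← hx] at this
      have h2 := hTY (hcommT hvg (hYM hyy)) (mul_mem h1 (inv_mem hyy))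
      rw [mul_inv_eq_one] at h2
      exact mul_inv_eq_iff_eq_mul.1 h2
    have hg2 : g * g ∈ Y := by
      have hgv : g = v * x⁻¹ := by rw [hvgx, mul_inv_cancel_right]
      rw [hgv, ← mul_assoc]
      exact mul_mem (hvY _ (inv_mem hxY)) (inv_mem hxY)
    rcases Nat.even_or_odd (orderOf g) with he | ⟨m, hm⟩
    · obtain ⟨hz, hzu, hzw⟩ := half_pow hu2 hw2 he
      set z := (u * w) ^ (orderOf (u * w) / 2)
      have huw : u * w = w * u := h.ai z hz u (mem_centralizer_singleton_iff.2 hzu.symm.eq) w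
        (mem_centralizer_singleton_iff.2 hzw.symm.eq)
      refine mem_centralizer_singleton_iff.2 (h.ai u hu w (mem_centralizer_singleton_iff.2 huw.symm) a
        (mem_centralizer_singleton_iff.2 ?_))
      exact (mem_centralizer_singleton_iff.1 u'.2).symm
    · refine absurd (hYM ?_) hgM
      have hpow : (g * g) ^ (m + 1) = g := by
        rw [← pow_two, ← pow_mul, show 2 * (m + 1) = orderOf g + 1 by omega, pow_succ, pow_orderOf_eq_one, one_mul]
      rw [← hpow]
      exact pow_mem hg2 _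
  -- centralisers of torus elements
  have hCy : ∀ {y c : G}, y ∈ Y → y ∉ O → c * y = y * c → c ∈ Y := by
    intro y c hy hyO hc
    by_cases hcM : c ∈ MT T
    · exact hCX hy hyO (hMX hcM) hc
    exfalso
    obtain ⟨t, ht, htA⟩ := exists_invol h
    obtain ⟨⟨w, hw, hwc⟩⟩ : Nonempty {v : G // orderOf v = 2 ∧ c⁻¹ * v ∈ MT T} := by
      refine (Nat.card_pos_iff.1 ?_).1
      rw [card_involutions_coset (stronglyEmbedded h) hcM]
      haveI : Nonempty {s : G // orderOf s = 2 ∧ s ∈ MT T} := ⟨⟨t, ht, le_normalizer htA⟩⟩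
      exact Nat.card_pos
    have hwM : w ∉ MT T := fun e => hcM (by
      have := mul_mem e (inv_mem hwc)
      rwa [mul_inv_rev, inv_inv, mul_inv_cancel_left] at this)
    set x := w * c with hx
    have hxM : x ∈ MT T := by
      have := inv_mem hwc
      rwa [mul_inv_rev, inv_inv, inv_eq_of_orderOf hw] at this
    have hxy : x * y * x⁻¹ = w * y * w := by
      rw [hx, mul_inv_rev, inv_eq_of_orderOf hw,
        show w * c * y * (c⁻¹ * w) = w * (c * y * c⁻¹) * w by group, hc, mul_inv_cancel_right]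
    have hwyM : w * y * w ∈ MT T := hxy ▸ mul_mem (mul_mem hxM (hYM hy)) (inv_mem hxM)
    have hT := hcommT hxM (hYM hy)
    rw [hxy] at hT
    rcases pair hw hwM hy hyO hwyM with h1 | h1
    · rw [h1, ← mul_inv_rev] at hT
      have h2 := hTY hT (inv_mem (mul_mem hy hy))
      rw [inv_eq_one, ← sq] at h2
      refine hyO ?_
      rw [orderOf_eq_one_iff.1 (Nat.eq_one_of_dvd_coprimes (Nat.coprime_two_left.2 (hYodd hy))
        (orderOf_dvd_of_pow_eq_one h2) dvd_rfl)]
      exact one_mem _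
    · have h2 := hTY hT (mul_mem (h1 y hy) (inv_mem hy))
      rw [mul_inv_eq_one] at h2
      refine hwM (hYM (hCX hy hyO (hnormX hw hwM h1) ?_))
      calc w * y = w * y * w * w := by rw [mul_assoc (w * y), mul_self_of_orderOf hw, mul_one]
        _ = _ := by rw [h2]
  -- every involution centralises `a`
  have hall : ∀ w : G, orderOf w = 2 → w ∈ X := by
    intro w hw
    by_cases hwM : w ∈ MT T
    · exact hMX hwM
    obtain ⟨j, hj, hwj, hjA⟩ := exists_inverted_ne h hw hwM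
    obtain ⟨y, hy, t, ht, rfl⟩ := hdec hj
    have hyO : y ∉ O := fun e => hjA (mul_mem (hOmem.1 e).1 (T_le h ht))
    let f : ↥(T : Subgroup G) → ↥(T : Subgroup G) := fun s => ⟨y⁻¹ * s * y * (s : G)⁻¹, by
      have := conj_mem_T h (inv_mem (hYM hy)) s.2
      rw [inv_inv] at this
      exact mul_mem this (inv_mem s.2)⟩
    have hinj : Function.Injective f := by
      intro s₁ s₂ e
      have e' : y⁻¹ * s₁ * y * (s₁ : G)⁻¹ = y⁻¹ * s₂ * y * (s₂ : G)⁻¹ := congrArg Subtype.val e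
      have hcomm : (s₁ : G) * (s₂ : G)⁻¹ * y = y * ((s₁ : G) * (s₂ : G)⁻¹) := by
        have h1 : y⁻¹ * ((s₁ : G) * (s₂ : G)⁻¹) * y = (s₁ : G) * (s₂ : G)⁻¹ := by
          calc y⁻¹ * ((s₁ : G) * (s₂ : G)⁻¹) * y
              = (y⁻¹ * s₁ * y * (s₁ : G)⁻¹) * s₁ * (y⁻¹ * (s₂ : G)⁻¹ * y) := by group
            _ = (y⁻¹ * s₂ * y * (s₂ : G)⁻¹) * s₁ * (y⁻¹ * (s₂ : G)⁻¹ * y) := by rw [e']
            _ = (y⁻¹ * s₂ * y) * ((s₂ : G)⁻¹ * s₁) * (y⁻¹ * s₂ * y)⁻¹ := by group
            _ = (s₂ : G)⁻¹ * s₁ := by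
              have hm : y⁻¹ * s₂ * y ∈ (T : Subgroup G) := by
                have := conj_mem_T h (inv_mem (hYM hy)) s₂.2
                rwa [inv_inv] at this
              rw [T_comm h hm (mul_mem (inv_mem s₂.2) s₁.2), mul_inv_cancel_right]
            _ = _ := T_comm h (inv_mem s₂.2) s₁.2
        calc (s₁ : G) * (s₂ : G)⁻¹ * y = y * (y⁻¹ * ((s₁ : G) * (s₂ : G)⁻¹) * y) := by group
          _ = _ := by rw [h1]
      have h1 := hTY (mul_mem s₁.2 (inv_mem s₂.2))
        (hCX hy hyO (hMX (le_normalizer (T_le h (mul_mem s₁.2 (inv_mem s₂.2))))) hcomm)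
      exact Subtype.ext (mul_inv_eq_one.1 h1)
    obtain ⟨s, hs⟩ := Finite.injective_iff_surjective.1 hinj ⟨t, ht⟩
    have hs' : y⁻¹ * s * y * (s : G)⁻¹ = t := congrArg Subtype.val hs
    obtain ⟨w', hw'⟩ : ∃ v, v = (s : G)⁻¹ * w * s := ⟨_, rfl⟩
    have hsX' : (s : G) ∈ X := hAX (T_le h s.2)
    have hw'o : orderOf w' = 2 := by
      have := orderOf_conj (s : G)⁻¹ w
      rw [inv_inv] at this
      rw [hw', this, hw]
    have hw'M : w' ∉ MT T := fun e => hwM (by
      have hsM : (s : G) ∈ MT T := le_normalizer (T_le h s.2)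
      have := mul_mem (mul_mem hsM e) (inv_mem hsM)
      rwa [hw', show (s : G) * ((s : G)⁻¹ * w * s) * (s : G)⁻¹ = w by group] at this)
    have hw'y : w' * y * w' = y⁻¹ := by
      have e : (s : G) * y * (s : G)⁻¹ = y * t := by rw [← hs']; group
      calc w' * y * w' = (s : G)⁻¹ * (w * ((s : G) * y * (s : G)⁻¹) * w) * s := by rw [hw']; group
        _ = (s : G)⁻¹ * (y * t)⁻¹ * s := by rw [e, hwj]
        _ = _ := by rw [← e]; group
    have hw'2 := mul_self_of_orderOf hw'o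
    have hw'X : w' ∈ X := hnormX hw'o hw'M fun y' hy' => hCy hy hyO (by
      have e1 : w' * y = y⁻¹ * w' := by
        calc w' * y = w' * y * w' * w' := by rw [mul_assoc (w' * y), hw'2, mul_one]
          _ = _ := by rw [hw'y]
      have e2 : y * w' = w' * y⁻¹ := by
        calc y * w' = w' * (w' * y * w') := by rw [← mul_assoc, ← mul_assoc, hw'2, one_mul]
          _ = _ := by rw [hw'y]
      calc w' * y' * w' * y = w' * y' * (w' * y) := by group
        _ = w' * (y' * y⁻¹) * w' := by rw [e1]; group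
        _ = w' * y⁻¹ * (y' * w') := by rw [hYc hy' (inv_mem hy)]; group
        _ = y * (w' * y' * w') := by rw [← e2]; group)
    have := mul_mem (mul_mem hsX' hw'X) (inv_mem hsX')
    rwa [hw', show (s : G) * ((s : G)⁻¹ * w * s) * (s : G)⁻¹ = w by group] at this
  exact hne_top ha1 (eq_top_of_le h hAX hall)

end CfsgLib.AbInv
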